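import Cfsg.Agent.H3.Rank4

set_option autoImplicit false

namespace Cfsg.Agent.H3

open scoped commutatorElement

/-- Adjoining to an elementary abelian subgroup an element of order dividing `p` commuting
with it gives an elementary abelian subgroup. -/
theorem elemAb_sup_zpowers {R : Type*} [Group R] {p : ℕ} (E : Subgroup R)
    (hEc : ∀ a ∈ E, ∀ b ∈ E, a * b = b * a) (hEe : ∀ a ∈ E, a ^ p = 1) (u : R)
    (hu : u ^ p = 1) (huE : ∀ e ∈ E, e * u = u * e) :
    (∀ a ∈ E ⊔ Subgroup.zpowers u, ∀ b ∈ E ⊔ Subgroup.zpowers u, a * b = b * a) ∧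
      (∀ a ∈ E ⊔ Subgroup.zpowers u, a ^ p = 1) := by
  have hmem : ∀ g ∈ E ⊔ Subgroup.zpowers u, ∃ e ∈ E, ∃ i : ℤ, g = e * u ^ i := by
    intro g hg
    obtain ⟨e, he, w, hw, rfl⟩ := mem_sup_of_normalizes E (Subgroup.zpowers u) (by
      intro w hw e he
      obtain ⟨i, rfl⟩ := Subgroup.mem_zpowers_iff.mp hw
      have h1 : Commute e (u ^ i) := (show Commute e u from huE e he).zpow_right i
      have e1 : u ^ i * e * (u ^ i)⁻¹ = e := by
        rw [← h1.eq, mul_inv_cancel_right]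
      rw [e1]; exact he) hg
    obtain ⟨i, rfl⟩ := Subgroup.mem_zpowers_iff.mp hw
    exact ⟨e, he, i, rfl⟩
  refine ⟨?_, ?_⟩
  · intro a ha b hb
    obtain ⟨e, he, i, rfl⟩ := hmem a ha
    obtain ⟨e', he', j, rfl⟩ := hmem b hb
    have h1 : Commute e (u ^ j) := (show Commute e u from huE e he).zpow_right j
    have h2 : Commute e' (u ^ i) := (show Commute e' u from huE e' he').zpow_right i
    have h3 : Commute (u ^ i) (u ^ j) := (Commute.refl u).zpow_zpow i j
    have h4 : Commute e e' := hEc e he e' he'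
    exact ((h4.mul_right h1).mul_left (h2.symm.mul_right h3)).eq
  · intro g hg
    obtain ⟨e, he, i, rfl⟩ := hmem g hg
    have h1 : Commute e (u ^ i) := (show Commute e u from huE e he).zpow_right i
    rw [h1.mul_pow, hEe e he, one_mul, ← zpow_natCast, ← zpow_mul, mul_comm, zpow_mul,
      zpow_natCast, hu, one_zpow]

theorem mem_ucs2_iff {R : Type*} [Group R] (x : R) :
    x ∈ Subgroup.upperCentralSeries R 2 ↔ ∀ y : R, x * y * x⁻¹ * y⁻¹ ∈ Subgroup.center R := by
  rw [show (2 : ℕ) = 1 + 1 from rfl, Subgroup.mem_upperCentralSeries_succ_iff,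
    Subgroup.upperCentralSeries_one]
  constructor
  · intro h y
    have := h y
    rwa [commutatorElement_def] at this
  · intro h y
    rw [commutatorElement_def]
    exact h y

/-- Commutators with an element `w` of the second centre of order dividing `p` are central of
order dividing `p`. -/
theorem ucs2_comm {R : Type*} [Group R] {p : ℕ} {w : R}
    (hw : w ∈ Subgroup.upperCentralSeries R 2) (hwp : w ^ p = 1) (r : R) :
    r * w * r⁻¹ * w⁻¹ ∈ Subgroup.center R ∧ (r * w * r⁻¹ * w⁻¹) ^ p = 1 := by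
  have h1 : r * w * r⁻¹ * w⁻¹ ∈ Subgroup.center R := by
    have h2 := (mem_ucs2_iff w).mp hw r
    have e : r * w * r⁻¹ * w⁻¹ = (w * r * w⁻¹ * r⁻¹)⁻¹ := by group
    rw [e]
    exact Subgroup.inv_mem _ h2
  refine ⟨h1, ?_⟩
  have hc : Commute (r * w * r⁻¹ * w⁻¹) w := (Subgroup.mem_center_iff.mp h1 w).symm
  have h3 : (r * w * r⁻¹ * w⁻¹ * w) ^ p = (r * w * r⁻¹ * w⁻¹) ^ p := by
    rw [hc.mul_pow, hwp, mul_one]
  have h4 : r * w * r⁻¹ * w⁻¹ * w = r * w * r⁻¹ := by group
  rw [h4, conj_pow, hwp, mul_one, mul_inv_cancel] at h3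
  exact h3.symm

/-- For `p` odd, the elements of order dividing `p` of the second centre form a subgroup. -/
theorem ucs2_mul_pow {R : Type*} [Group R] {p : ℕ} (hpp : p.Prime) (hp : p ≠ 2) {a b : R}
    (ha : a ∈ Subgroup.upperCentralSeries R 2) (hap : a ^ p = 1) (hbp : b ^ p = 1) :
    (a * b) ^ p = 1 := by
  have hrel := basic_rel a b
  have ht := ucs2_comm (Subgroup.inv_mem _ ha) (by rw [inv_pow, hap, inv_one] : a⁻¹ ^ p = 1) b⁻¹
  rw [inv_inv, inv_inv] at ht
  have htc : b⁻¹ * a⁻¹ * b * a ∈ Subgroup.center R := ht.1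
  have htp : (b⁻¹ * a⁻¹ * b * a) ^ p = 1 := ht.2
  have htu : Commute (b⁻¹ * a⁻¹ * b * a) a := (Subgroup.mem_center_iff.mp htc a).symm
  have htv : Commute (b⁻¹ * a⁻¹ * b * a) b := (Subgroup.mem_center_iff.mp htc b).symm
  rw [mul_pow_of_rel_comm hrel htu htv p, hap, hbp, one_mul, one_mul]
  obtain ⟨k, hk⟩ := hpp.dvd_choose_self (by norm_num : 2 ≠ 0)
    (by have := hpp.two_le; omega : 2 < p)
  rw [hk, pow_mul, htp, one_pow]

theorem omega_ucs2_mem {R : Type*} [Group R] {p : ℕ} (hpp : p.Prime) (hp : p ≠ 2) :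
    ∀ g ∈ Subgroup.closure {x : R | x ∈ Subgroup.upperCentralSeries R 2 ∧ x ^ p = 1},
      g ∈ Subgroup.upperCentralSeries R 2 ∧ g ^ p = 1 := by
  intro g hg
  induction hg using Subgroup.closure_induction with
  | mem v hv => exact hv
  | one => exact ⟨Subgroup.one_mem _, one_pow p⟩
  | mul a b _ _ iha ihb =>
    exact ⟨Subgroup.mul_mem _ iha.1 ihb.1, ucs2_mul_pow hpp hp iha.1 iha.2 ihb.2⟩
  | inv a _ iha => exact ⟨Subgroup.inv_mem _ iha.1, by rw [inv_pow, iha.2, inv_one]⟩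

theorem omega_center_mem {R : Type*} [Group R] {p : ℕ} :
    ∀ g ∈ Subgroup.closure {x : R | x ∈ Subgroup.center R ∧ x ^ p = 1},
      g ∈ Subgroup.center R ∧ g ^ p = 1 := by
  intro g hg
  induction hg using Subgroup.closure_induction with
  | mem v hv => exact hv
  | one => exact ⟨Subgroup.one_mem _, one_pow p⟩
  | mul a b _ _ iha ihb =>
    have hc : Commute a b := (Subgroup.mem_center_iff.mp ihb.1 a)
    exact ⟨Subgroup.mul_mem _ iha.1 ihb.1, by rw [hc.mul_pow, iha.2, ihb.2, one_mul]⟩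
  | inv a _ iha => exact ⟨Subgroup.inv_mem _ iha.1, by rw [inv_pow, iha.2, inv_one]⟩

end Cfsg.Agent.H3
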