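import Cfsg.Agent.H3.PGroup
import Cfsg.Agent.S0088
import Cfsg.Agent.S0026
import Mathlib

set_option autoImplicit false

namespace Cfsg.Agent.H3

open scoped commutatorElement

variable {G : Type*} [Group G] [Finite G] {p : ℕ} [Fact p.Prime]

/-- For an abelian Sylow subgroup `P`, the focal subgroup lies in the derived subgroup of `N_G(P)`. -/
theorem focal_le_commutator_normalizer (P : Sylow p G) (hP : IsMulCommutative P) :
    (P : Subgroup G).focalSubgroup ≤
      ⁅Subgroup.normalizer ((P : Subgroup G) : Set G), Subgroup.normalizer ((P : Subgroup G) : Set G)⁆ := by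
  rw [Subgroup.focalSubgroup_def, Subgroup.closure_le]
  rintro g ⟨hgP, x, hxP, u, rfl⟩
  have h1 : u⁻¹⁻¹ * x⁻¹ * u⁻¹ ∈ (P : Subgroup G) := by
    have : u⁻¹⁻¹ * x⁻¹ * u⁻¹ = x⁻¹ * ⁅x, u⁆ := by
      rw [commutatorElement_def]; group
    rw [this]
    exact Subgroup.mul_mem _ (Subgroup.inv_mem _ hxP) hgP
  obtain ⟨n, hn, hnx⟩ := P.conj_eq_normalizer_conj_of_mem x⁻¹ u⁻¹ (Subgroup.inv_mem _ hxP) h1
  have h2 : ⁅x, u⁆ = ⁅x, n⁻¹⁆ := by
    rw [commutatorElement_def, commutatorElement_def]
    calc x * u * x⁻¹ * u⁻¹ = x * (u⁻¹⁻¹ * x⁻¹ * u⁻¹) := by group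
      _ = x * (n⁻¹ * x⁻¹ * n) := by rw [hnx]
      _ = x * n⁻¹ * x⁻¹ * n⁻¹⁻¹ := by group
  rw [h2]
  exact Subgroup.commutator_mem_commutator (Subgroup.le_normalizer hxP) (Subgroup.inv_mem _ hn)

/-- For an abelian Sylow subgroup `P`, the focal subgroup meets `C_P(N_G(P))` trivially. -/
theorem focal_inf_central_eq_bot (P : Sylow p G) (hP : IsMulCommutative P) :
    (P : Subgroup G).focalSubgroup ⊓
      ((P : Subgroup G) ⊓ Subgroup.centralizer (Subgroup.normalizer ((P : Subgroup G) : Set G) : Set G))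
      = ⊥ := by
  set Nm := Subgroup.normalizer ((P : Subgroup G) : Set G) with hNm
  have hPN : (P : Subgroup G) ≤ Nm := Subgroup.le_normalizer
  rw [eq_bot_iff]
  intro w hw
  obtain ⟨hwF, hwZ⟩ := Subgroup.mem_inf.mp hw
  obtain ⟨hwP, hwC⟩ := Subgroup.mem_inf.mp hwZ
  rw [Subgroup.mem_bot]
  have hwN : w ∈ Nm := hPN hwP
  -- apply S0088 inside the group Nm
  have hcomm : IsMulCommutative ((P : Subgroup G).subgroupOf Nm) := by
    refine ⟨⟨fun a b => ?_⟩⟩
    apply Subtype.ext
    apply Subtype.ext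
    have h := mul_comm' (⟨((a : Nm) : G), a.2⟩ : (P : Subgroup G)) ⟨((b : Nm) : G), b.2⟩
    have h' : ((a : Nm) : G) * ((b : Nm) : G) = ((b : Nm) : G) * ((a : Nm) : G) :=
      congrArg Subtype.val h
    exact h'
  have hHall : Nat.Coprime (Nat.card ((P : Subgroup G).subgroupOf Nm))
      ((P : Subgroup G).subgroupOf Nm).index := by
    have h1 : Nat.card ((P : Subgroup G).subgroupOf Nm) = Nat.card (P : Subgroup G) :=
      Nat.card_congr (Subgroup.subgroupOfEquivOfLe hPN).toEquiv
    rw [h1]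
    exact Nat.Coprime.coprime_dvd_right (Subgroup.relIndex_dvd_index_of_le hPN) P.card_coprime_index
  have h88 := Cfsg.Agent.S0088.result ((P : Subgroup G).subgroupOf Nm) hcomm hHall
  have hmem : (⟨w, hwN⟩ : Nm) ∈ (P : Subgroup G).subgroupOf Nm ⊓ commutator Nm ⊓ Subgroup.center Nm := by
    refine Subgroup.mem_inf.mpr ⟨Subgroup.mem_inf.mpr ⟨hwP, ?_⟩, ?_⟩
    · have h2 := focal_le_commutator_normalizer P hP hwF
      rw [← hNm, ← Subgroup.map_subtype_commutator] at h2
      obtain ⟨y, hy, hyw⟩ := h2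
      have : y = ⟨w, hwN⟩ := Subtype.ext hyw
      rw [← this]; exact hy
    · rw [Subgroup.mem_center_iff]
      intro g
      apply Subtype.ext
      exact (Subgroup.mem_centralizer_iff.mp hwC) g g.2
  rw [h88, Subgroup.mem_bot] at hmem
  exact congrArg Subtype.val hmem

/-- For an abelian Sylow subgroup `P`: `P = P* · C_P(N_G(P))`. -/
theorem le_focal_sup_central (P : Sylow p G) (hP : IsMulCommutative P) :
    (P : Subgroup G) ≤ (P : Subgroup G).focalSubgroup ⊔
      ((P : Subgroup G) ⊓ Subgroup.centralizer (Subgroup.normalizer ((P : Subgroup G) : Set G) : Set G)) := by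
  set Nm := Subgroup.normalizer ((P : Subgroup G) : Set G) with hNm
  have hPN : (P : Subgroup G) ≤ Nm := Subgroup.le_normalizer
  have : ((P : Subgroup G).subgroupOf Nm).Normal := Subgroup.normal_in_normalizer
  have h1 : Nat.card ((P : Subgroup G).subgroupOf Nm) = Nat.card (P : Subgroup G) :=
    Nat.card_congr (Subgroup.subgroupOfEquivOfLe hPN).toEquiv
  have hHall : Nat.Coprime (Nat.card ((P : Subgroup G).subgroupOf Nm))
      ((P : Subgroup G).subgroupOf Nm).index := by
    rw [h1]
    exact Nat.Coprime.coprime_dvd_right (Subgroup.relIndex_dvd_index_of_le hPN) P.card_coprime_index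
  obtain ⟨L', hL'⟩ := Subgroup.exists_left_complement'_of_coprime hHall
  set L : Subgroup G := L'.map Nm.subtype with hL
  have hLN : L ≤ Nm := by
    rintro _ ⟨l, -, rfl⟩; exact l.2
  have hLcard : Nat.card L = ((P : Subgroup G).subgroupOf Nm).index := by
    rw [hL, Subgroup.card_map_of_injective Nm.subtype_injective]
    exact hL'.index_eq_card.symm
  have hcop : (Nat.card L).Coprime (Nat.card (P : Subgroup G)) := by
    rw [hLcard, ← h1]; exact hHall.symm
  have hcomm : ∀ a b : (P : Subgroup G), a * b = b * a := fun a b => mul_comm' a b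
  have : Group.IsSolvable (P : Subgroup G) := Group.isSolvable_of_comm hcomm
  have h26 := Cfsg.Agent.S0026.result L (P : Subgroup G) hLN hcop (Or.inr inferInstance)
  have hsup : L ⊔ (P : Subgroup G) = Nm := by
    have h2 : (L' ⊔ (P : Subgroup G).subgroupOf Nm).map Nm.subtype
        = L'.map Nm.subtype ⊔ ((P : Subgroup G).subgroupOf Nm).map Nm.subtype := Subgroup.map_sup _ _ _
    rw [hL'.sup_eq_top, Subgroup.map_subgroupOf_eq_of_le hPN, ← MonoidHom.range_eq_map,
      Subgroup.range_subtype] at h2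
    exact h2.symm
  have hA : ⁅(P : Subgroup G), L⁆ ≤ (P : Subgroup G).focalSubgroup := by
    rw [Subgroup.commutator_le]
    intro x hx l hl
    rw [Subgroup.focalSubgroup_def]
    apply Subgroup.subset_closure
    refine ⟨?_, x, hx, l, rfl⟩
    have hlN := hLN hl
    have h3 : l * x⁻¹ * l⁻¹ ∈ (P : Subgroup G) :=
      (Subgroup.mem_normalizer_iff.mp hlN x⁻¹).mp (Subgroup.inv_mem _ hx)
    have : ⁅x, l⁆ = x * (l * x⁻¹ * l⁻¹) := by
      rw [commutatorElement_def]; group
    rw [this]
    exact Subgroup.mul_mem _ hx h3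
  have hB : (P : Subgroup G) ⊓ Subgroup.centralizer (L : Set G) ≤
      (P : Subgroup G) ⊓ Subgroup.centralizer (Nm : Set G) := by
    intro x hx
    obtain ⟨hxP, hxL⟩ := Subgroup.mem_inf.mp hx
    refine Subgroup.mem_inf.mpr ⟨hxP, ?_⟩
    have hLx : L ≤ Subgroup.centralizer ({x} : Set G) := by
      intro l hl
      rw [Subgroup.mem_centralizer_iff]
      intro y hy
      rw [Set.mem_singleton_iff] at hy
      subst hy
      exact ((Subgroup.mem_centralizer_iff.mp hxL) l hl).symm
    have hPx : (P : Subgroup G) ≤ Subgroup.centralizer ({x} : Set G) := by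
      intro a ha
      rw [Subgroup.mem_centralizer_iff]
      intro y hy
      rw [Set.mem_singleton_iff] at hy
      subst hy
      exact congrArg Subtype.val (hcomm ⟨y, hxP⟩ ⟨a, ha⟩)
    rw [Subgroup.mem_centralizer_iff]
    intro n hn
    have hn' : n ∈ Subgroup.centralizer ({x} : Set G) := by
      have : n ∈ L ⊔ (P : Subgroup G) := by rw [hsup]; exact hn
      exact (sup_le hLx hPx) this
    exact ((Subgroup.mem_centralizer_iff.mp hn') x rfl).symm
  calc (P : Subgroup G) = ⁅(P : Subgroup G), L⁆ ⊔ ((P : Subgroup G) ⊓ Subgroup.centralizer (L : Set G)) :=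
        h26.symm
    _ ≤ _ := sup_le_sup hA hB

end Cfsg.Agent.H3
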