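import Cfsg.Agent.H3.PGroup
import Cfsg.Agent.S0002
import Cfsg.Agent.S0105
import Cfsg.Agent.H53.PRes

set_option autoImplicit false

namespace Cfsg.Agent.H3

open scoped Pointwise

/-- Frattini-type step: a complement `H₀` of an abelian normal Hall subgroup `Q` of `R` is
normalized, modulo `Q`, by every element normalizing `R`. -/
theorem conj_complement_step {G : Type*} [Group G] [Finite G] (R Q : Subgroup G) (hQR : Q ≤ R)
    [hQn : (Q.subgroupOf R).Normal] (hQab : ∀ a ∈ Q, ∀ b ∈ Q, a * b = b * a)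
    (hcop : Nat.Coprime (Nat.card (Q.subgroupOf R)) (Q.subgroupOf R).index)
    (H₀ : Subgroup R) (hH₀ : (Q.subgroupOf R).IsComplement' H₀)
    (l : G) (hl : ∀ r ∈ R, l * r * l⁻¹ ∈ R) :
    ∃ q ∈ Q, q⁻¹ * l ∈ Subgroup.normalizer ((H₀.map R.subtype : Subgroup G) : Set G) := by
  have hmemH : ∀ y : R, (y : G) ∈ H₀.map R.subtype ↔ y ∈ H₀ :=
    fun y => Subgroup.mem_map_iff_mem (Subgroup.subtype_injective _)
  have hHR : H₀.map R.subtype ≤ R := by
    rintro _ ⟨y, _, rfl⟩
    exact y.2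
  have hHlR : (H₀.map R.subtype).map (MulAut.conj l).toMonoidHom ≤ R := by
    rintro _ ⟨y, hy, rfl⟩
    exact hl y (hHR hy)
  have hcard1 : Nat.card (((H₀.map R.subtype).map (MulAut.conj l).toMonoidHom).subgroupOf R) =
      Nat.card H₀ := by
    rw [Nat.card_congr (Subgroup.subgroupOfEquivOfLe hHlR).toEquiv,
      Subgroup.card_map_of_injective (MulAut.conj l).injective, Subgroup.card_subtype]
  have hcompl : (Q.subgroupOf R).IsComplement'
      (((H₀.map R.subtype).map (MulAut.conj l).toMonoidHom).subgroupOf R) := by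
    apply Subgroup.isComplement'_of_coprime
    · rw [hcard1]; exact hH₀.card_mul_card
    · rw [hcard1, ← hH₀.symm.index_eq_card]; exact hcop
  have hab : IsMulCommutative (Q.subgroupOf R) :=
    ⟨⟨fun a b => Subtype.ext (Subtype.ext (hQab _ a.2 _ b.2))⟩⟩
  obtain ⟨a, ha, hconj⟩ := Cfsg.Agent.S0002.result (Q.subgroupOf R) hcop H₀ _ hH₀ hcompl
  have haQ : ((a : R) : G) ∈ Q := ha
  have hiff : ∀ u : G, u ∈ R → (((a : R) : G)⁻¹ * u * ((a : R) : G) ∈ H₀.map R.subtype ↔
      u ∈ (H₀.map R.subtype).map (MulAut.conj l).toMonoidHom) := by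
    intro u hu
    have h1 : (⟨u, hu⟩ : R) ∈ MulAut.conj a • H₀ ↔
        (⟨u, hu⟩ : R) ∈ ((H₀.map R.subtype).map (MulAut.conj l).toMonoidHom).subgroupOf R := by
      rw [hconj]
    rw [Subgroup.mem_pointwise_smul_iff_inv_smul_mem, Subgroup.mem_subgroupOf] at h1
    have e : (MulAut.conj a)⁻¹ • (⟨u, hu⟩ : R) = a⁻¹ * ⟨u, hu⟩ * a := by
      simp [MulAut.smul_def, mul_assoc]
    rw [e, ← hmemH] at h1
    exact h1
  refine ⟨((a : R) : G), haQ, ?_⟩
  rw [Subgroup.mem_normalizer_iff]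
  intro h
  have e1 : ((a : R) : G)⁻¹ * l * h * (((a : R) : G)⁻¹ * l)⁻¹ =
      ((a : R) : G)⁻¹ * (l * h * l⁻¹) * ((a : R) : G) := by group
  rw [e1]
  constructor
  · intro hh
    have hu : l * h * l⁻¹ ∈ (H₀.map R.subtype).map (MulAut.conj l).toMonoidHom :=
      ⟨h, hh, rfl⟩
    exact (hiff _ (hHlR hu)).mpr hu
  · intro hk
    have huR : l * h * l⁻¹ ∈ R := by
      have e2 : l * h * l⁻¹ = ((a : R) : G) * (((a : R) : G)⁻¹ * (l * h * l⁻¹) * ((a : R) : G)) *
          ((a : R) : G)⁻¹ := by group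
      rw [e2]
      exact R.mul_mem (R.mul_mem (hQR haQ) (hHR hk)) (R.inv_mem (hQR haQ))
    obtain ⟨h', hh', he⟩ := (hiff _ huR).mp hk
    have he' : l * h' * l⁻¹ = l * h * l⁻¹ := he
    have : h' = h := by
      have := mul_left_cancel (mul_right_cancel he')
      exact this
    rw [← this]
    exact hh'

/-- The core of the splitting theorem: `M ⊴ G` of `p`-power index, `Q` an abelian Sylow
`p`-subgroup of `M` with `C_Q(N_M(Q)) = 1`; then `M` has a complement. -/
theorem complement_core {G : Type*} [Group G] [Finite G] {p : ℕ} [Fact p.Prime]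
    (M : Subgroup G) [M.Normal] (Q : Subgroup G) (hQM : Q ≤ M) (hQp : IsPGroup p Q)
    (hQab : ∀ a ∈ Q, ∀ b ∈ Q, a * b = b * a)
    (h1 : ¬ p ∣ Q.relIndex M) (h2 : ∃ k : ℕ, M.index = p ^ k)
    (h3 : Subgroup.normalizer (Q : Set G) ⊔ M = ⊤)
    (h4 : Q ⊓ Subgroup.centralizer ((Subgroup.normalizer (Q : Set G) ⊓ M : Subgroup G) : Set G)
      = ⊥) :
    ∃ K : Subgroup G, K.IsComplement' M := by
  have hp : p.Prime := Fact.out
  have hQL : Q ≤ Subgroup.normalizer (Q : Set G) := Subgroup.le_normalizer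
  have hQR : Q ≤ Subgroup.normalizer (Q : Set G) ⊓ M := le_inf hQL hQM
  have hRL : Subgroup.normalizer (Q : Set G) ⊓ M ≤ Subgroup.normalizer (Q : Set G) := inf_le_left
  have hRM : Subgroup.normalizer (Q : Set G) ⊓ M ≤ M := inf_le_right
  have hQ'n : (Q.subgroupOf (Subgroup.normalizer (Q : Set G) ⊓ M)).Normal :=
    (Subgroup.normal_subgroupOf_iff_le_normalizer hQR).mpr hRL
  have hQ'card : Nat.card (Q.subgroupOf (Subgroup.normalizer (Q : Set G) ⊓ M)) = Nat.card Q :=
    Nat.card_congr (Subgroup.subgroupOfEquivOfLe hQR).toEquiv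
  have hQ'idx : ¬ p ∣ (Q.subgroupOf (Subgroup.normalizer (Q : Set G) ⊓ M)).index := by
    intro hdvd
    apply h1
    have h5 := Subgroup.relIndex_mul_relIndex Q (Subgroup.normalizer (Q : Set G) ⊓ M) M hQR hRM
    rw [← h5]
    exact Dvd.dvd.mul_right hdvd _
  obtain ⟨k, hk⟩ := IsPGroup.iff_card.mp hQp
  have hcop : Nat.Coprime (Nat.card (Q.subgroupOf (Subgroup.normalizer (Q : Set G) ⊓ M)))
      (Q.subgroupOf (Subgroup.normalizer (Q : Set G) ⊓ M)).index := by
    rw [hQ'card, hk]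
    exact Nat.Coprime.pow_left k ((Nat.Prime.coprime_iff_not_dvd hp).mpr hQ'idx)
  obtain ⟨H₀, hH₀⟩ := Subgroup.exists_right_complement'_of_coprime hcop
  have hHR : H₀.map (Subgroup.normalizer (Q : Set G) ⊓ M).subtype ≤
      Subgroup.normalizer (Q : Set G) ⊓ M := by
    rintro _ ⟨y, _, rfl⟩
    exact y.2
  have hH₀card : Nat.card H₀ = (Q.subgroupOf (Subgroup.normalizer (Q : Set G) ⊓ M)).index :=
    (hH₀.symm.index_eq_card).symm
  have hHcard : Nat.card (H₀.map (Subgroup.normalizer (Q : Set G) ⊓ M).subtype) =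
      Nat.card H₀ := Subgroup.card_subtype _ H₀
  have hHcop : Nat.Coprime (Nat.card (H₀.map (Subgroup.normalizer (Q : Set G) ⊓ M).subtype)) p := by
    rw [hHcard, hH₀card]
    exact ((Nat.Prime.coprime_iff_not_dvd hp).mpr hQ'idx).symm
  have hQH : Q ⊓ H₀.map (Subgroup.normalizer (Q : Set G) ⊓ M).subtype = ⊥ :=
    Subgroup.inf_eq_bot_of_coprime (by rw [hk]; exact Nat.Coprime.pow_left k hHcop.symm)
  have hmemH : ∀ y : (Subgroup.normalizer (Q : Set G) ⊓ M : Subgroup G),
      (y : G) ∈ H₀.map (Subgroup.normalizer (Q : Set G) ⊓ M).subtype ↔ y ∈ H₀ :=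
    fun y => Subgroup.mem_map_iff_mem (Subgroup.subtype_injective _)
  have hdecomp : ∀ r ∈ Subgroup.normalizer (Q : Set G) ⊓ M, ∃ q ∈ Q,
      ∃ h ∈ H₀.map (Subgroup.normalizer (Q : Set G) ⊓ M).subtype, r = q * h := by
    intro r hr
    obtain ⟨⟨q', h'⟩, hqh⟩ := hH₀.2 ⟨r, hr⟩
    refine ⟨(q' : (Subgroup.normalizer (Q : Set G) ⊓ M : Subgroup G)), q'.2, (h' : _),
      (hmemH _).mpr h'.2, ?_⟩
    have := congrArg Subtype.val hqh
    exact this.symm
  have hstep : ∀ l ∈ Subgroup.normalizer (Q : Set G), ∃ q ∈ Q, q⁻¹ * l ∈ Subgroup.normalizer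
      ((H₀.map (Subgroup.normalizer (Q : Set G) ⊓ M).subtype : Subgroup G) : Set G) := by
    intro l hl
    apply conj_complement_step _ Q hQR hQab hcop H₀ hH₀ l
    intro r hr
    obtain ⟨hr1, hr2⟩ := Subgroup.mem_inf.mp hr
    refine Subgroup.mem_inf.mpr ⟨?_, ?_⟩
    · exact Subgroup.mul_mem _ (Subgroup.mul_mem _ hl hr1) (Subgroup.inv_mem _ hl)
    · exact ‹M.Normal›.conj_mem r hr2 l
  generalize hHdef : H₀.map (Subgroup.normalizer (Q : Set G) ⊓ M).subtype = H
    at hHR hHcop hQH hdecomp hstep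
  have hHL : H ≤ Subgroup.normalizer (Q : Set G) := hHR.trans hRL
  have hHM : H ≤ M := hHR.trans hRM
  have hNQ : ∀ x ∈ Q, x ∈ Subgroup.normalizer (H : Set G) → x = 1 := by
    intro x hxQ hxN
    have hxc : x ∈ Subgroup.centralizer
        ((Subgroup.normalizer (Q : Set G) ⊓ M : Subgroup G) : Set G) := by
      rw [Subgroup.mem_centralizer_iff]
      intro r hr
      obtain ⟨q, hq, h, hh, rfl⟩ := hdecomp r hr
      have e1 : q * x = x * q := hQab q hq x hxQ
      have e2 : h * x = x * h := by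
        have hc1 : x * h * x⁻¹ ∈ H := (Subgroup.mem_normalizer_iff.mp hxN h).mp hh
        have hc2 : x * h * x⁻¹ * h⁻¹ ∈ H := H.mul_mem hc1 (H.inv_mem hh)
        have hc3 : h * x⁻¹ * h⁻¹ ∈ Q :=
          (Subgroup.mem_normalizer_iff.mp (hHL hh) x⁻¹).mp (Q.inv_mem hxQ)
        have hc4 : x * h * x⁻¹ * h⁻¹ ∈ Q := by
          have e : x * h * x⁻¹ * h⁻¹ = x * (h * x⁻¹ * h⁻¹) := by group
          rw [e]
          exact Q.mul_mem hxQ hc3
        have hc5 : x * h * x⁻¹ * h⁻¹ ∈ Q ⊓ H := Subgroup.mem_inf.mpr ⟨hc4, hc2⟩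
        rw [hQH, Subgroup.mem_bot] at hc5
        have h6 : x * h * x⁻¹ = h := mul_inv_eq_one.mp hc5
        calc h * x = (x * h * x⁻¹) * x := by rw [h6]
          _ = x * h := by group
      calc q * h * x = q * (h * x) := by group
        _ = q * (x * h) := by rw [e2]
        _ = (q * x) * h := by group
        _ = (x * q) * h := by rw [e1]
        _ = x * (q * h) := by group
    have h7 : x ∈ Q ⊓ Subgroup.centralizer
        ((Subgroup.normalizer (Q : Set G) ⊓ M : Subgroup G) : Set G) :=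
      Subgroup.mem_inf.mpr ⟨hxQ, hxc⟩
    rw [h4, Subgroup.mem_bot] at h7
    exact h7
  have hNM : ∀ y, y ∈ Subgroup.normalizer (H : Set G) → y ∈ Subgroup.normalizer (Q : Set G) →
      y ∈ M → y ∈ H := by
    intro y hy1 hy2 hy3
    obtain ⟨q, hq, h, hh, rfl⟩ := hdecomp y (Subgroup.mem_inf.mpr ⟨hy2, hy3⟩)
    have hqN : q ∈ Subgroup.normalizer (H : Set G) := by
      have e : q = (q * h) * h⁻¹ := by group
      rw [e]
      exact Subgroup.mul_mem _ hy1 (Subgroup.inv_mem _ (Subgroup.le_normalizer hh))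
    rw [hNQ q hq hqN, one_mul]
    exact hh
  have hNsup : (Subgroup.normalizer (H : Set G) ⊓ Subgroup.normalizer (Q : Set G)) ⊔ M = ⊤ := by
    rw [eq_top_iff, ← h3]
    apply sup_le _ le_sup_right
    intro l hl
    obtain ⟨q, hq, hqn⟩ := hstep l hl
    have hqnL : q⁻¹ * l ∈ Subgroup.normalizer (Q : Set G) :=
      Subgroup.mul_mem _ (Subgroup.inv_mem _ (hQL hq)) hl
    have h8 : q * (q⁻¹ * l) ∈ M ⊔
        (Subgroup.normalizer (H : Set G) ⊓ Subgroup.normalizer (Q : Set G)) :=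
      Subgroup.mul_mem_sup (hQM hq) (Subgroup.mem_inf.mpr ⟨hqn, hqnL⟩)
    rw [mul_inv_cancel_left, sup_comm] at h8
    exact h8
  obtain ⟨S⟩ : Nonempty (Sylow p (Subgroup.normalizer (H : Set G) ⊓
    Subgroup.normalizer (Q : Set G) : Subgroup G)) := inferInstance
  have hKcard : Nat.card ((S : Subgroup (Subgroup.normalizer (H : Set G) ⊓
      Subgroup.normalizer (Q : Set G) : Subgroup G)).map
      (Subgroup.normalizer (H : Set G) ⊓ Subgroup.normalizer (Q : Set G)).subtype) =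
      p ^ (Nat.card (Subgroup.normalizer (H : Set G) ⊓
        Subgroup.normalizer (Q : Set G) : Subgroup G)).factorization p := by
    rw [Subgroup.card_subtype]
    exact S.card_eq_multiplicity
  have hNcard : Nat.card (Subgroup.normalizer (H : Set G) ⊓
      Subgroup.normalizer (Q : Set G) : Subgroup G) = M.index * Nat.card H := by
    have e1 := relIndex_mul_card_inf M
      (Subgroup.normalizer (H : Set G) ⊓ Subgroup.normalizer (Q : Set G))
    have e2 : M.relIndex (Subgroup.normalizer (H : Set G) ⊓ Subgroup.normalizer (Q : Set G)) =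
        M.index := by
      rw [← Subgroup.relIndex_sup_right _ M, hNsup, Subgroup.relIndex_top_right]
    have e3 : M ⊓ (Subgroup.normalizer (H : Set G) ⊓ Subgroup.normalizer (Q : Set G)) = H := by
      apply le_antisymm
      · intro y hy
        obtain ⟨hy1, hy2⟩ := Subgroup.mem_inf.mp hy
        obtain ⟨hy3, hy4⟩ := Subgroup.mem_inf.mp hy2
        exact hNM y hy3 hy4 hy1
      · exact le_inf hHM (le_inf Subgroup.le_normalizer hHL)
    rw [e2, e3] at e1
    exact e1.symm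
  obtain ⟨k', hk'⟩ := h2
  have hnd : ¬ p ∣ Nat.card H := fun hd => by
    have := Nat.Coprime.eq_one_of_dvd hHcop.symm hd
    exact hp.one_lt.ne' this
  have hKcard' : Nat.card ((S : Subgroup (Subgroup.normalizer (H : Set G) ⊓
      Subgroup.normalizer (Q : Set G) : Subgroup G)).map
      (Subgroup.normalizer (H : Set G) ⊓ Subgroup.normalizer (Q : Set G)).subtype) = p ^ k' := by
    rw [hKcard, hNcard, hk', Nat.factorization_mul (pow_ne_zero _ hp.ne_zero) Nat.card_pos.ne',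
      Finsupp.add_apply, hp.factorization_pow, Finsupp.single_eq_same,
      Nat.factorization_eq_zero_of_not_dvd hnd, add_zero]
  have hKN : (S : Subgroup (Subgroup.normalizer (H : Set G) ⊓
      Subgroup.normalizer (Q : Set G) : Subgroup G)).map
      (Subgroup.normalizer (H : Set G) ⊓ Subgroup.normalizer (Q : Set G)).subtype ≤
      Subgroup.normalizer (H : Set G) ⊓ Subgroup.normalizer (Q : Set G) := by
    rintro _ ⟨y, _, rfl⟩
    exact y.2
  have hKH : (S : Subgroup (Subgroup.normalizer (H : Set G) ⊓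
      Subgroup.normalizer (Q : Set G) : Subgroup G)).map
      (Subgroup.normalizer (H : Set G) ⊓ Subgroup.normalizer (Q : Set G)).subtype ⊓ H = ⊥ :=
    Subgroup.inf_eq_bot_of_coprime (by rw [hKcard']; exact Nat.Coprime.pow_left k' hHcop.symm)
  refine ⟨_, Subgroup.isComplement'_of_card_mul_and_disjoint (H := (S : Subgroup
      (Subgroup.normalizer (H : Set G) ⊓ Subgroup.normalizer (Q : Set G) : Subgroup G)).map
      (Subgroup.normalizer (H : Set G) ⊓ Subgroup.normalizer (Q : Set G)).subtype) ?_ ?_⟩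
  · rw [hKcard', ← hk']
    exact Subgroup.index_mul_card M
  · rw [disjoint_iff, eq_bot_iff]
    intro y hy
    obtain ⟨hy1, hy2⟩ := Subgroup.mem_inf.mp hy
    obtain ⟨hy3, hy4⟩ := Subgroup.mem_inf.mp (hKN hy1)
    have hyH : y ∈ H := hNM y hy3 hy4 hy2
    rw [← hKH]
    exact Subgroup.mem_inf.mpr ⟨hy1, hyH⟩

end Cfsg.Agent.H3
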