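import Cfsg.Agent.H3.Meta2
import Cfsg.Agent.H3.MaxAbelian
import Cfsg.Agent.H3.Critical
import Cfsg.Prelude.Def_CaseTheorems
import Mathlib

set_option autoImplicit false

namespace Cfsg.Agent.H3

universe u

open scoped commutatorElement

/-- Bound on elementary abelian sections, stated with subgroups of the group. -/
def SecBound (p k : ℕ) (G : Type*) [Group G] : Prop :=
  ∀ H N : Subgroup G, N ≤ H → (∀ h ∈ H, ∀ n ∈ N, h * n * h⁻¹ ∈ N) → (∀ x ∈ H, x ^ p ∈ N) →
    (∀ x ∈ H, ∀ y ∈ H, x * y * x⁻¹ * y⁻¹ ∈ N) → Nat.card H ≤ p ^ k * Nat.card N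

theorem secBound_of_sectional {p k : ℕ} {G : Type*} [Group G] [Finite G]
    (h : Cfsg.SectionalPRankLE p k G) : SecBound p k G := by
  intro H N hNH hnorm hpow hcomm
  haveI hN' : (N.subgroupOf H).Normal := by
    constructor
    intro n hn g
    rw [Subgroup.mem_subgroupOf] at hn ⊢
    simpa using hnorm g g.2 n hn
  have hc : IsMulCommutative (⊤ : Subgroup (↥H ⧸ N.subgroupOf H)) := by
    refine ⟨⟨fun a b => ?_⟩⟩
    apply Subtype.ext
    obtain ⟨x, hx⟩ := QuotientGroup.mk_surjective a.1
    obtain ⟨y, hy⟩ := QuotientGroup.mk_surjective b.1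
    show a.1 * b.1 = b.1 * a.1
    rw [← hx, ← hy, ← QuotientGroup.mk_mul, ← QuotientGroup.mk_mul, QuotientGroup.eq,
      Subgroup.mem_subgroupOf]
    have := hcomm (y⁻¹ : H) (H.inv_mem y.2) (x⁻¹ : H) (H.inv_mem x.2)
    simpa [mul_assoc] using this
  have hp : ∀ a ∈ (⊤ : Subgroup (↥H ⧸ N.subgroupOf H)), a ^ p = 1 := by
    intro a _
    obtain ⟨x, rfl⟩ := QuotientGroup.mk_surjective a
    rw [← QuotientGroup.mk_pow, QuotientGroup.eq_one_iff, Subgroup.mem_subgroupOf]
    simpa using hpow x x.2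
  have h1 := h H (N.subgroupOf H) ⊤ hc hp
  rw [Subgroup.card_top] at h1
  have h2 := Subgroup.card_eq_card_quotient_mul_card_subgroup (N.subgroupOf H)
  have h3 : Nat.card (N.subgroupOf H) = Nat.card N :=
    Nat.card_congr (Subgroup.subgroupOfEquivOfLe hNH).toEquiv
  rw [h2, h3]
  exact Nat.mul_le_mul_right _ h1

theorem secBound_quotient {p k : ℕ} {G : Type*} [Group G] [Finite G] (h : SecBound p k G)
    (K : Subgroup G) [K.Normal] : SecBound p k (G ⧸ K) := by
  intro H N hNH hnorm hpow hcomm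
  have h1 := h (H.comap (QuotientGroup.mk' K)) (N.comap (QuotientGroup.mk' K))
    (Subgroup.comap_mono hNH) (by
      intro x hx n hn
      rw [Subgroup.mem_comap] at hx hn ⊢
      simpa using hnorm _ hx _ hn) (by
      intro x hx
      rw [Subgroup.mem_comap] at hx ⊢
      simpa using hpow _ hx) (by
      intro x hx y hy
      rw [Subgroup.mem_comap] at hx hy ⊢
      simpa using hcomm _ hx _ hy)
  rw [card_comap_mk', card_comap_mk'] at h1
  have hpos : 0 < Nat.card K := Nat.card_pos
  have : Nat.card K * Nat.card H ≤ Nat.card K * (p ^ k * Nat.card N) := by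
    calc Nat.card K * Nat.card H ≤ p ^ k * (Nat.card K * Nat.card N) := h1
      _ = Nat.card K * (p ^ k * Nat.card N) := by ring
  exact Nat.le_of_mul_le_mul_left this hpos

/-- In a finite group, a subgroup stable under conjugation by a generating set is normal. -/
theorem normal_of_closure_conj {G : Type*} [Group G] [Finite G] (H : Subgroup G) (S : Set G)
    (hS : Subgroup.closure S = ⊤) (h : ∀ g ∈ S, ∀ x ∈ H, g * x * g⁻¹ ∈ H) : H.Normal := by
  have hle : Subgroup.closure S ≤ Subgroup.normalizer (H : Set G) := by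
    rw [Subgroup.closure_le]
    intro g hg
    rw [SetLike.mem_coe, Subgroup.mem_normalizer_iff]
    intro x
    refine ⟨fun hx => h g hg x hx, fun hx => ?_⟩
    let f : H → H := fun y => ⟨g * y * g⁻¹, h g hg y y.2⟩
    have hinj : Function.Injective f := by
      intro y₁ y₂ h12
      have := congrArg Subtype.val h12
      simp only [f] at this
      apply Subtype.ext
      simpa using this
    obtain ⟨y, hy⟩ := Finite.surjective_of_injective hinj ⟨g * x * g⁻¹, hx⟩
    have := congrArg Subtype.val hy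
    simp only [f] at this
    have hxy : (y : G) = x := by simpa using this
    rw [← hxy]; exact y.2
  rw [hS, top_le_iff] at hle
  exact Subgroup.normalizer_eq_top_iff.mp hle

theorem zpowers_normal_of_mem_center {G : Type*} [Group G] {z : G}
    (hz : z ∈ Subgroup.center G) : (Subgroup.zpowers z).Normal := by
  constructor
  intro t ht g
  have htc : t ∈ Subgroup.center G := (Subgroup.zpowers_le.mpr hz) ht
  rw [Subgroup.mem_center_iff] at htc
  rw [htc g, mul_inv_cancel_right]
  exact ht

/-- `x ∉ Φ(R)`, `b ∉ ⟨x⟩Φ(R)` and `|R| ≤ p² |Φ(R)|` give `R = ⟨b⟩⟨x⟩`. -/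
theorem sup_zpowers_eq_top {R : Type*} [Group R] [Finite R] {p : ℕ} [Fact p.Prime]
    (hR : IsPGroup p R) (h4 : Nat.card R ≤ p ^ 2 * Nat.card (frattini R)) {x b : R}
    (hxΦ : x ∉ frattini R) (hb : b ∉ Subgroup.zpowers x ⊔ frattini R) :
    Subgroup.zpowers b ⊔ Subgroup.zpowers x = ⊤ := by
  apply frattini_nongenerating
  apply Subgroup.eq_top_of_le_card
  have hlt1 : frattini R < Subgroup.zpowers x ⊔ frattini R := by
    refine lt_of_le_of_ne le_sup_right (fun h => hxΦ ?_)
    rw [h]
    exact Subgroup.mem_sup_left (Subgroup.mem_zpowers x)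
  have hlt2 : Subgroup.zpowers x ⊔ frattini R <
      (Subgroup.zpowers b ⊔ Subgroup.zpowers x) ⊔ frattini R := by
    refine lt_of_le_of_ne (sup_le_sup_right le_sup_right _) (fun h => hb ?_)
    rw [h]
    exact Subgroup.mem_sup_left (Subgroup.mem_sup_left (Subgroup.mem_zpowers b))
  have c1 := card_mul_le_of_lt hR hlt1
  have c2 := card_mul_le_of_lt hR hlt2
  calc Nat.card R ≤ p ^ 2 * Nat.card (frattini R) := h4
    _ = p * (p * Nat.card (frattini R)) := by ring
    _ ≤ p * Nat.card (Subgroup.zpowers x ⊔ frattini R : Subgroup R) :=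
      Nat.mul_le_mul_left _ c1
    _ ≤ _ := c2

theorem exists_not_mem_sup_frattini {R : Type*} [Group R] [Finite R] (hnc : ¬ IsCyclic R)
    (x : R) : ∃ b : R, b ∉ Subgroup.zpowers x ⊔ frattini R := by
  by_contra hb
  push Not at hb
  have : Subgroup.zpowers x ⊔ frattini R = ⊤ := eq_top_iff.mpr (fun y _ => hb y)
  have h6 := frattini_nongenerating this
  exact hnc ⟨⟨x, fun y => by
    have hy : y ∈ Subgroup.zpowers x := by rw [h6]; exact Subgroup.mem_top y
    exact Subgroup.mem_zpowers_iff.mp hy⟩⟩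

theorem comm_of_gen_two {Q : Type*} [Group Q] {X B : Q}
    (hgen : Subgroup.zpowers B ⊔ Subgroup.zpowers X = ⊤) (h : X * B = B * X) :
    ∀ u v : Q, u * v = v * u := by
  have hC : Subgroup.zpowers B ⊔ Subgroup.zpowers X ≤
      Subgroup.centralizer ({X, B} : Set Q) := by
    refine sup_le (Subgroup.zpowers_le.mpr ?_) (Subgroup.zpowers_le.mpr ?_)
    · rw [Subgroup.mem_centralizer_iff]
      intro g hg
      rcases hg with rfl | rfl
      · exact h
      · rfl
    · rw [Subgroup.mem_centralizer_iff]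
      intro g hg
      rcases hg with rfl | rfl
      · rfl
      · exact h.symm
  rw [hgen] at hC
  have hXc : X ∈ Subgroup.center Q := by
    rw [Subgroup.mem_center_iff]
    intro g
    exact ((Subgroup.mem_centralizer_iff.mp (hC (Subgroup.mem_top g))) X
      (Set.mem_insert _ _)).symm
  have hBc : B ∈ Subgroup.center Q := by
    rw [Subgroup.mem_center_iff]
    intro g
    exact ((Subgroup.mem_centralizer_iff.mp (hC (Subgroup.mem_top g))) B
      (Set.mem_insert_of_mem _ rfl)).symm
  have hZ : Subgroup.zpowers B ⊔ Subgroup.zpowers X ≤ Subgroup.center Q :=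
    sup_le (Subgroup.zpowers_le.mpr hBc) (Subgroup.zpowers_le.mpr hXc)
  rw [hgen] at hZ
  intro u v
  exact Subgroup.mem_center_iff.mp (hZ (Subgroup.mem_top v)) u

/-- If `R = ⟨b⟩⟨x⟩` and the normal subgroup `N` contains `⁅x, b⁆`, then `R' ≤ N`. -/
theorem commutator_le_of_gen {R : Type*} [Group R] {x b : R}
    (hgen : Subgroup.zpowers b ⊔ Subgroup.zpowers x = ⊤) (N : Subgroup R) [N.Normal]
    (hc : ⁅x, b⁆ ∈ N) : commutator R ≤ N := by
  have hxb : (x : R ⧸ N) * (b : R ⧸ N) = (b : R ⧸ N) * (x : R ⧸ N) := by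
    rw [← QuotientGroup.mk_mul, ← QuotientGroup.mk_mul, QuotientGroup.eq]
    have h1 : (x * b)⁻¹ * (b * x) = (x * b)⁻¹ * ⁅x, b⁆⁻¹ * ((x * b)⁻¹)⁻¹ := by
      rw [commutatorElement_def]; group
    rw [h1]
    exact Subgroup.Normal.conj_mem inferInstance _ (N.inv_mem hc) _
  have hgen' : Subgroup.zpowers (b : R ⧸ N) ⊔ Subgroup.zpowers (x : R ⧸ N) = ⊤ := by
    have h1 := congrArg (Subgroup.map (QuotientGroup.mk' N)) hgen
    rw [Subgroup.map_sup, MonoidHom.map_zpowers, MonoidHom.map_zpowers,
      Subgroup.map_top_of_surjective _ (QuotientGroup.mk'_surjective N)] at h1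
    exact h1
  have hcomm := comm_of_gen_two hgen' hxb
  rw [← Subgroup.Normal.quotient_commutative_iff_commutator_le]
  exact ⟨⟨hcomm⟩⟩

theorem comm_mem_commutator' {R : Type*} [Group R] (x y : R) :
    x * y * x⁻¹ * y⁻¹ ∈ commutator R := by
  have : ⁅x, y⁆ ∈ commutator R := by
    rw [commutator_def]
    exact Subgroup.commutator_mem_commutator (Subgroup.mem_top x) (Subgroup.mem_top y)
  rwa [commutatorElement_def] at this


/-- Case of central derived subgroup of exponent two. -/
theorem exists_gen_of_central_two {R : Type*} [Group R] [Finite R] (hR : IsPGroup 2 R)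
    (hsb : SecBound 2 2 R) (hnc : ¬ IsCyclic R)
    (h4 : Nat.card R ≤ 2 ^ 2 * Nat.card (frattini R))
    (hD2 : ∀ d ∈ commutator R, d ^ 2 = 1) (hDc : commutator R ≤ Subgroup.center R) :
    ∃ x : R, x ∉ frattini R ∧ commutator R ≤ Subgroup.zpowers x := by
  haveI : Fact (Nat.Prime 2) := ⟨Nat.prime_two⟩
  obtain ⟨a, ha⟩ : ∃ a : R, a ∉ frattini R := by
    obtain ⟨b, hb⟩ := exists_not_mem_sup_frattini hnc (1 : R)
    exact ⟨b, fun h => hb (Subgroup.mem_sup_right h)⟩
  by_cases hD1 : commutator R = ⊥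
  · exact ⟨a, ha, by rw [hD1]; exact bot_le⟩
  obtain ⟨b, hb⟩ := exists_not_mem_sup_frattini hnc a
  have hgen := sup_zpowers_eq_top hR h4 ha hb
  obtain ⟨c, hc⟩ : ∃ c : R, c = ⁅a, b⁆ := ⟨_, rfl⟩
  have hcD : c ∈ commutator R := by
    rw [hc, commutatorElement_def]; exact comm_mem_commutator' a b
  have hcc : c ∈ Subgroup.center R := hDc hcD
  have hc2 : c ^ 2 = 1 := hD2 c hcD
  haveI hCn : (Subgroup.zpowers c).Normal := zpowers_normal_of_mem_center hcc
  have hDle : commutator R ≤ Subgroup.zpowers c :=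
    commutator_le_of_gen hgen _ (by rw [← hc]; exact Subgroup.mem_zpowers c)
  have hc1 : c ≠ 1 := by
    intro h
    apply hD1
    rw [eq_bot_iff]
    intro d hd
    have := hDle hd
    rw [h, Subgroup.zpowers_one_eq_bot] at this
    exact this
  have hDmem : ∀ d ∈ commutator R, d = 1 ∨ d = c := by
    intro d hd
    obtain ⟨i, rfl⟩ := Subgroup.mem_zpowers_iff.mp (hDle hd)
    rcases Int.even_or_odd i with ⟨w, hw⟩ | ⟨w, hw⟩
    · left
      rw [hw, ← two_mul, zpow_mul, zpow_ofNat, hc2, one_zpow]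
    · right
      rw [hw, zpow_add, zpow_one, zpow_mul, zpow_ofNat, hc2, one_zpow, one_mul]
  have hDcard : Nat.card (commutator R) = 2 := by
    have : commutator R = Subgroup.zpowers c :=
      le_antisymm hDle (Subgroup.zpowers_le.mpr hcD)
    rw [this, Nat.card_zpowers]; exact orderOf_eq_prime hc2 hc1
  have hsq : ∀ u v : R, ∃ t ∈ commutator R, (u * v) ^ 2 = u ^ 2 * v ^ 2 * t := by
    intro u v
    refine ⟨v⁻¹ * u⁻¹ * v * u, basic_rel_mem_commutator u v, ?_⟩
    have := mul_pow_of_rel (basic_rel u v) (hDc (basic_rel_mem_commutator u v)) 2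
    simpa using this
  let ψ : R →* R ⧸ commutator R :=
    { toFun := fun x => (QuotientGroup.mk' (commutator R)) (x ^ 2)
      map_one' := by simp
      map_mul' := fun u v => by
        obtain ⟨t, ht, h⟩ := hsq u v
        rw [h, map_mul, map_mul]
        have : (QuotientGroup.mk' (commutator R)) t = 1 := (QuotientGroup.eq_one_iff t).mpr ht
        rw [this, mul_one] }
  have hψ : ∀ x : R, ψ x = (QuotientGroup.mk' (commutator R)) (x ^ 2) := fun x => rfl
  have hker : ∀ x : R, x ∈ ψ.ker ↔ x ^ 2 ∈ commutator R := by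
    intro x
    rw [MonoidHom.mem_ker, hψ]
    exact QuotientGroup.eq_one_iff (x ^ 2)
  obtain ⟨Φb, hΦb⟩ : ∃ Φb : Subgroup (R ⧸ commutator R),
      Φb = (frattini R).map (QuotientGroup.mk' (commutator R)) := ⟨_, rfl⟩
  have hrange : ψ.range ≤ Φb := by
    rintro _ ⟨x, rfl⟩
    rw [hΦb]
    exact ⟨x ^ 2, pow_mem_frattini hR x, rfl⟩
  have hΦbcard : Nat.card (frattini R) = 2 * Nat.card Φb := by
    have h1 := card_comap_mk' (commutator R) Φb
    have h2 : Φb.comap (QuotientGroup.mk' (commutator R)) = frattini R := by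
      rw [hΦb, Subgroup.comap_map_eq, QuotientGroup.ker_mk',
        sup_eq_left.mpr (commutator_le_frattini hR)]
    rw [h2, hDcard] at h1
    exact h1
  have hcardR : Nat.card R = Nat.card ψ.range * Nat.card ψ.ker := by
    have e := QuotientGroup.quotientKerEquivRange ψ
    have := Subgroup.card_eq_card_quotient_mul_card_subgroup ψ.ker
    rw [Nat.card_congr e.toEquiv] at this
    exact this
  have hRΦ : Nat.card R = 4 * Nat.card (frattini R) := by
    have h5 := sq_mul_card_frattini_le hR hnc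
    norm_num at h4 h5
    omega
  have hker8 : Nat.card ψ.ker ≤ 8 := by
    have := hsb ψ.ker (commutator R) (fun d hd => (hker d).mpr (Subgroup.pow_mem _ hd 2))
      (fun h _ n hn => Subgroup.Normal.conj_mem inferInstance n hn h)
      (fun x hx => (hker x).mp hx) (fun x _ y _ => comm_mem_commutator' x y)
    rw [hDcard] at this
    omega
  have hsqc : ∃ w : R, w ^ 2 = c := by
    by_contra hns
    push Not at hns
    have hkE : ∀ x ∈ ψ.ker, x ^ 2 = 1 := by
      intro x hx
      rcases hDmem _ ((hker x).mp hx) with h | h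
      · exact h
      · exact absurd h (hns x)
    have hkcomm : ∀ x ∈ ψ.ker, ∀ y ∈ ψ.ker, x * y * x⁻¹ * y⁻¹ = 1 := by
      intro x hx y hy
      have h1 := hkE x hx
      have h2 := hkE y hy
      have h3 := hkE (x * y) (Subgroup.mul_mem _ hx hy)
      have hx' : x⁻¹ = x := by rw [inv_eq_iff_mul_eq_one, ← pow_two]; exact h1
      have hy' : y⁻¹ = y := by rw [inv_eq_iff_mul_eq_one, ← pow_two]; exact h2
      rw [hx', hy', mul_assoc, ← pow_two]; exact h3
    have h7 := hsb ψ.ker ⊥ bot_le (fun h _ n hn => by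
        rw [Subgroup.mem_bot] at hn ⊢
        rw [hn, mul_one, mul_inv_cancel])
      (fun x hx => Subgroup.mem_bot.mpr (hkE x hx))
      (fun x hx y hy => Subgroup.mem_bot.mpr (hkcomm x hx y hy))
    rw [Subgroup.card_bot] at h7
    have hr := Subgroup.card_le_of_le hrange
    have hpos : 0 < Nat.card Φb := Nat.card_pos
    have h8 : 8 * Nat.card Φb ≤ Nat.card Φb * Nat.card ψ.ker := by
      calc 8 * Nat.card Φb = Nat.card R := by rw [hRΦ, hΦbcard]; ring
        _ = Nat.card ψ.range * Nat.card ψ.ker := hcardR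
        _ ≤ Nat.card Φb * Nat.card ψ.ker := Nat.mul_le_mul_right _ hr
    nlinarith
  obtain ⟨w₀, hw₀⟩ := hsqc
  have hΦform : ∀ y ∈ frattini R, ∃ w : R, ∃ d ∈ commutator R, y = w ^ 2 * d := by
    obtain ⟨Sq, hSq⟩ : ∃ Sq : Subgroup R,
        Sq = ψ.range.comap (QuotientGroup.mk' (commutator R)) := ⟨_, rfl⟩
    have hSqmem : ∀ y ∈ Sq, ∃ w : R, (w ^ 2)⁻¹ * y ∈ commutator R := by
      intro y hy
      rw [hSq, Subgroup.mem_comap] at hy
      obtain ⟨w, hw⟩ := hy
      refine ⟨w, ?_⟩
      rw [← QuotientGroup.eq]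
      exact hw
    have hSqle : Sq ≤ frattini R := by
      intro y hy
      obtain ⟨w, h1⟩ := hSqmem y hy
      have : y = w ^ 2 * ((w ^ 2)⁻¹ * y) := by group
      rw [this]
      exact Subgroup.mul_mem _ (pow_mem_frattini hR w) (commutator_le_frattini hR h1)
    have hSqcard : Nat.card Sq = 2 * Nat.card ψ.range := by
      rw [hSq, card_comap_mk', hDcard]
    have hSqeq : Sq = frattini R := by
      apply Subgroup.eq_of_le_of_card_ge hSqle
      rw [hSqcard]
      have : 4 * Nat.card (frattini R) ≤ Nat.card ψ.range * 8 := by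
        calc 4 * Nat.card (frattini R) = Nat.card R := hRΦ.symm
          _ = Nat.card ψ.range * Nat.card ψ.ker := hcardR
          _ ≤ Nat.card ψ.range * 8 := Nat.mul_le_mul_left _ hker8
      omega
    intro y hy
    rw [← hSqeq] at hy
    obtain ⟨w, h1⟩ := hSqmem y hy
    exact ⟨w, _, h1, by group⟩
  haveI : Nonempty {y : R // c ∈ Subgroup.zpowers y} := ⟨⟨c, Subgroup.mem_zpowers c⟩⟩
  obtain ⟨⟨y, hy⟩, hmax⟩ :=
    Finite.exists_max (fun y : {y : R // c ∈ Subgroup.zpowers y} => orderOf (y : R))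
  refine ⟨y, ?_, hDle.trans (Subgroup.zpowers_le.mpr hy)⟩
  intro hyΦ
  obtain ⟨w, d, hd, hyw⟩ := hΦform y hyΦ
  have hw₀c : c ∈ Subgroup.zpowers w₀ := by
    rw [← hw₀]; exact Subgroup.pow_mem _ (Subgroup.mem_zpowers w₀) 2
  have hw₀ord : orderOf w₀ = 4 := by
    have h4' : w₀ ^ 2 ^ (1 + 1) = 1 := by
      norm_num
      rw [show 4 = 2 * 2 from rfl, pow_mul, hw₀, hc2]
    have h2' : ¬ w₀ ^ 2 ^ 1 = 1 := by rw [pow_one, hw₀]; exact hc1
    have := orderOf_eq_prime_pow h2' h4'
    norm_num at this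
    exact this
  have hy4 : 4 ≤ orderOf y := by
    have := hmax ⟨w₀, hw₀c⟩
    simp only at this
    rw [hw₀ord] at this; exact this
  have hy1 : y ≠ 1 := by
    rintro rfl
    rw [orderOf_one] at hy4
    omega
  obtain ⟨f, hf⟩ := (IsPGroup.iff_orderOf (p := 2)).1 hR w
  have hordsq : 1 ≤ f → orderOf (w ^ 2) = 2 ^ (f - 1) := by
    intro hf1
    rw [orderOf_pow' w (by norm_num), hf]
    have h3 : Nat.gcd (2 ^ f) 2 = 2 := Nat.gcd_eq_right (dvd_pow_self 2 (by omega))
    rw [h3]
    have : 2 ^ f = 2 ^ (f - 1) * 2 := by rw [← pow_succ]; congr 1; omega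
    rw [this, Nat.mul_div_cancel _ (by norm_num)]
  rcases hDmem d hd with rfl | rfl
  · rw [mul_one] at hyw
    have hcw : c ∈ Subgroup.zpowers w :=
      (Subgroup.zpowers_le.mpr (by
        rw [hyw]; exact Subgroup.pow_mem _ (Subgroup.mem_zpowers w) 2)) hy
    have h1 := hmax ⟨w, hcw⟩
    simp only at h1
    have hf1 : 1 ≤ f := by
      rcases Nat.eq_zero_or_pos f with h0 | h0
      · rw [h0, pow_zero] at hf
        have : w = 1 := orderOf_eq_one_iff.mp hf
        rw [this, one_pow] at hyw; exact absurd hyw hy1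
      · exact h0
    have h2 : orderOf y = 2 ^ (f - 1) := by rw [hyw]; exact hordsq hf1
    rw [hf, h2] at h1
    have := (Nat.pow_le_pow_iff_right (by norm_num : 1 < 2)).mp h1
    omega
  · have hyfin : IsOfFinOrder y := isOfFinOrder_of_finite y
    obtain ⟨j, hj⟩ := (Submonoid.mem_powers_iff _ _).mp (hyfin.mem_powers_iff_mem_zpowers.mpr hy)
    have hcomm : Commute (w ^ 2) d := (Subgroup.mem_center_iff.mp hcc (w ^ 2))
    have hcw2 : (w ^ 2 * d) ^ 2 = w ^ 4 := by
      rw [hcomm.mul_pow, hc2, mul_one, ← pow_mul]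
    rcases Nat.even_or_odd j with ⟨i, hi⟩ | hodd
    · have hc' : d = w ^ (4 * i) := by
        rw [← hj, hi, ← two_mul, pow_mul, hyw, hcw2, ← pow_mul]
      have hcw : d ∈ Subgroup.zpowers w := by
        rw [hc']; exact Subgroup.pow_mem _ (Subgroup.mem_zpowers w) _
      have h1 := hmax ⟨w, hcw⟩
      simp only at h1
      have hyw' : y = (w ^ 2) ^ (1 + 2 * i) := by
        rw [hyw]
        conv_lhs => rw [hc']
        rw [← pow_mul, ← pow_add]; congr 1; ring
      have hf1 : 1 ≤ f := by
        rcases Nat.eq_zero_or_pos f with h0 | h0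
        · rw [h0, pow_zero] at hf
          have hw1 : w = 1 := orderOf_eq_one_iff.mp hf
          rw [hw1, one_pow, one_mul] at hyw
          rw [hyw, orderOf_eq_prime hc2 hc1] at hy4
          omega
        · exact h0
      have h2 := hordsq hf1
      have h3 : orderOf y ∣ 2 ^ (f - 1) := by rw [hyw', ← h2]; exact orderOf_pow_dvd _
      have h4'' := Nat.le_of_dvd (pow_pos (by norm_num) _) h3
      rw [hf] at h1
      have h5 : 2 ^ f ≤ 2 ^ (f - 1) := h1.trans h4''
      have := (Nat.pow_le_pow_iff_right (by norm_num : 1 < 2)).mp h5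
      omega
    · obtain ⟨g, hg⟩ := (IsPGroup.iff_orderOf (p := 2)).1 hR y
      have hcop : (orderOf y).Coprime j := by
        rw [hg]; exact Nat.Coprime.pow_left g (Nat.coprime_two_left.mpr hodd)
      have h1 := hcop.orderOf_pow
      rw [hj, orderOf_eq_prime hc2 hc1] at h1
      omega


/-- A noncyclic finite `2`-group all of whose elementary abelian sections have order at most
`4` has an element `x ∉ Φ(R)` with `R' ≤ ⟨x⟩`. -/
theorem exists_gen_commutator_two :
    ∀ (n : ℕ) (R : Type u) [Group R] [Finite R], Nat.card R = n → IsPGroup 2 R →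
      SecBound 2 2 R → ¬ IsCyclic R →
      ∃ x : R, x ∉ frattini R ∧ commutator R ≤ Subgroup.zpowers x := by
  haveI : Fact (Nat.Prime 2) := ⟨Nat.prime_two⟩
  intro n
  induction n using Nat.strong_induction_on with
  | _ n ih =>
    intro R _ _ hn hR hsb hnc
    have h4 : Nat.card R ≤ 2 ^ 2 * Nat.card (frattini R) := by
      have := hsb ⊤ (frattini R) le_top
        (fun h _ n hn => Subgroup.Normal.conj_mem inferInstance n hn h)
        (fun x _ => pow_mem_frattini hR x)
        (fun x _ y _ => commutator_le_frattini hR (comm_mem_commutator' x y))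
      rwa [Subgroup.card_top] at this
    obtain ⟨S₀, hS₀⟩ : ∃ S₀ : Set R, S₀ = {y | ∃ d ∈ commutator R, y = d ^ 2} ∪
        {y | ∃ d ∈ commutator R, ∃ g : R, y = ⁅d, g⁆} := ⟨_, rfl⟩
    obtain ⟨M, hM⟩ : ∃ M : Subgroup R, M = Subgroup.normalClosure S₀ := ⟨_, rfl⟩
    haveI hMn : M.Normal := by rw [hM]; exact Subgroup.normalClosure_normal
    have hMle : M ≤ commutator R := by
      rw [hM]
      apply Subgroup.normalClosure_le_normal
      rw [hS₀]
      rintro y (⟨d, hd, rfl⟩ | ⟨d, hd, g, rfl⟩)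
      · exact Subgroup.pow_mem _ hd 2
      · rw [commutatorElement_def]; exact comm_mem_commutator' d g
    by_cases hM1 : M = ⊥
    · have hS₀1 : ∀ y ∈ S₀, y = 1 := by
        intro y hy
        have h1 : y ∈ M := by rw [hM]; exact Subgroup.subset_normalClosure hy
        rw [hM1, Subgroup.mem_bot] at h1
        exact h1
      have hD2 : ∀ d ∈ commutator R, d ^ 2 = 1 := fun d hd =>
        (hS₀1 _ (by rw [hS₀]; exact Or.inl ⟨d, hd, rfl⟩))
      have hDc : commutator R ≤ Subgroup.center R := by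
        intro d hd
        rw [Subgroup.mem_center_iff]
        intro g
        have h1 := hS₀1 ⁅d, g⁆ (by rw [hS₀]; exact Or.inr ⟨d, hd, g, rfl⟩)
        rw [commutatorElement_eq_one_iff_mul_comm] at h1
        exact h1.symm
      exact exists_gen_of_central_two hR hsb hnc h4 hD2 hDc
    · obtain ⟨z₀, hz₀M, hz₀c, hz₀1⟩ := normal_inf_center_ne_bot hR M hM1
      obtain ⟨k, hk⟩ := (IsPGroup.iff_orderOf (p := 2)).1 hR z₀
      have hk1 : 1 ≤ k := by
        rcases Nat.eq_zero_or_pos k with h0 | h0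
        · rw [h0, pow_zero] at hk
          exact absurd (orderOf_eq_one_iff.mp hk) hz₀1
        · exact h0
      obtain ⟨z, hz⟩ : ∃ z : R, z = z₀ ^ 2 ^ (k - 1) := ⟨_, rfl⟩
      have hzM : z ∈ M := by rw [hz]; exact Subgroup.pow_mem _ hz₀M _
      have hzc : z ∈ Subgroup.center R := by rw [hz]; exact Subgroup.pow_mem _ hz₀c _
      have hz2 : z ^ 2 = 1 := by
        rw [hz, ← pow_mul, ← pow_succ, (show k - 1 + 1 = k by omega), ← hk]
        exact pow_orderOf_eq_one z₀
      have hz1 : z ≠ 1 := by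
        intro h0
        rw [hz] at h0
        have h1 := orderOf_dvd_of_pow_eq_one h0
        rw [hk] at h1
        have h2 := Nat.le_of_dvd (pow_pos (by norm_num) _) h1
        have h3 := (Nat.pow_le_pow_iff_right (by norm_num : 1 < 2)).mp h2
        omega
      obtain ⟨Z, hZ⟩ : ∃ Z : Subgroup R, Z = Subgroup.zpowers z := ⟨_, rfl⟩
      haveI hZn : Z.Normal := by rw [hZ]; exact zpowers_normal_of_mem_center hzc
      have hZcard : Nat.card Z = 2 := by
        rw [hZ, Nat.card_zpowers]; exact orderOf_eq_prime hz2 hz1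
      have hZle : Z ≤ frattini R := by
        rw [hZ]
        exact (Subgroup.zpowers_le.mpr (hMle hzM)).trans (commutator_le_frattini hR)
      have hQcard : Nat.card (R ⧸ Z) < n := by
        have := Subgroup.card_eq_card_quotient_mul_card_subgroup Z
        rw [hZcard, hn] at this
        have hpos : 0 < Nat.card (R ⧸ Z) := Nat.card_pos
        omega
      have hQnc : ¬ IsCyclic (R ⧸ Z) := by
        intro hc
        obtain ⟨q, hq⟩ := hc.exists_generator
        obtain ⟨g, rfl⟩ := QuotientGroup.mk_surjective q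
        apply hnc
        have h1 : Subgroup.zpowers g ⊔ frattini R = ⊤ := by
          rw [eq_top_iff]
          intro y _
          obtain ⟨i, hi⟩ := Subgroup.mem_zpowers_iff.mp (hq (y : R ⧸ Z))
          have h2 : (g ^ i)⁻¹ * y ∈ Z := by
            rw [← QuotientGroup.eq, QuotientGroup.mk_zpow]; exact hi
          have : y = g ^ i * ((g ^ i)⁻¹ * y) := by group
          rw [this]
          exact Subgroup.mul_mem _
            (Subgroup.mem_sup_left (Subgroup.zpow_mem _ (Subgroup.mem_zpowers g) i))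
            (Subgroup.mem_sup_right (hZle h2))
        have h3 := frattini_nongenerating h1
        exact ⟨⟨g, fun y => by
          have hy : y ∈ Subgroup.zpowers g := by rw [h3]; exact Subgroup.mem_top y
          exact Subgroup.mem_zpowers_iff.mp hy⟩⟩
      obtain ⟨xq, hxqΦ, hxq⟩ := ih _ hQcard (R ⧸ Z) rfl (hR.to_quotient Z)
        (secBound_quotient hsb Z) hQnc
      obtain ⟨x, rfl⟩ := QuotientGroup.mk_surjective xq
      have hxΦ : x ∉ frattini R := by
        intro hx
        apply hxqΦ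
        exact frattini_le_comap_frattini_of_surjective (QuotientGroup.mk'_surjective Z) hx
      have hDle : ∀ d ∈ commutator R, ∃ i : ℤ, ∃ e : ℤ, d = x ^ i * z ^ e := by
        intro d hd
        have h1 : (d : R ⧸ Z) ∈ commutator (R ⧸ Z) := by
          have : commutator (R ⧸ Z) = (commutator R).map (QuotientGroup.mk' Z) := by
            rw [commutator_def, commutator_def, Subgroup.map_commutator,
              Subgroup.map_top_of_surjective _ (QuotientGroup.mk'_surjective Z)]
          rw [this]; exact ⟨d, hd, rfl⟩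
        obtain ⟨i, hi⟩ := Subgroup.mem_zpowers_iff.mp (hxq h1)
        have h2 : (x ^ i)⁻¹ * d ∈ Z := by
          rw [← QuotientGroup.eq, QuotientGroup.mk_zpow]; exact hi
        rw [hZ] at h2
        obtain ⟨e, he⟩ := Subgroup.mem_zpowers_iff.mp h2
        exact ⟨i, e, by rw [he]; group⟩
      obtain ⟨b, hb⟩ := exists_not_mem_sup_frattini hnc x
      have hgen := sup_zpowers_eq_top hR h4 hxΦ hb
      obtain ⟨c, hc⟩ : ∃ c : R, c = ⁅x, b⁆ := ⟨_, rfl⟩
      have hcD : c ∈ commutator R := by
        rw [hc, commutatorElement_def]; exact comm_mem_commutator' x b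
      obtain ⟨r, e, hcre⟩ := hDle c hcD
      have hzcomm : ∀ g : R, g * z = z * g := Subgroup.mem_center_iff.mp hzc
      have hxze : x * z ^ e = z ^ e * x := (Commute.zpow_right (hzcomm x) e).eq
      have hxc : x * c = c * x := by
        rw [hcre]
        have h1 : x * x ^ r = x ^ r * x := by
          rw [← zpow_one_add, ← zpow_add_one, add_comm]
        calc x * (x ^ r * z ^ e) = x ^ r * (x * z ^ e) := by rw [← mul_assoc, h1, mul_assoc]
          _ = x ^ r * z ^ e * x := by rw [hxze, mul_assoc]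
      have hbx : b * x * b⁻¹ = c⁻¹ * x := by rw [hc, commutatorElement_def]; group
      have hbc : b * c * b⁻¹ = c ^ (-r) * c := by
        have hze : b * z ^ e * b⁻¹ = z ^ e := by
          rw [(Commute.zpow_right (hzcomm b) e).eq, mul_inv_cancel_right]
        have h1 : b * c * b⁻¹ = (b * x * b⁻¹) ^ r * z ^ e := by
          calc b * c * b⁻¹ = b * (x ^ r * z ^ e) * b⁻¹ := by rw [← hcre]
            _ = (b * x ^ r * b⁻¹) * (b * z ^ e * b⁻¹) := by group
            _ = (b * x * b⁻¹) ^ r * z ^ e := by rw [hze, conj_zpow]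
        have hcx : Commute c⁻¹ x := Commute.inv_left (show Commute c x from hxc.symm)
        rw [h1, hbx, hcx.mul_zpow, inv_zpow', mul_assoc, ← hcre]
      haveI hCn : (Subgroup.zpowers c).Normal := by
        apply normal_of_closure_conj (Subgroup.zpowers c) ({b, x} : Set R)
        · have h1 : ({b, x} : Set R) = {b} ∪ {x} := Set.insert_eq b {x}
          rw [h1, Subgroup.closure_union, ← Subgroup.zpowers_eq_closure,
            ← Subgroup.zpowers_eq_closure, hgen]
        · intro g hg t ht
          obtain ⟨j, rfl⟩ := Subgroup.mem_zpowers_iff.mp ht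
          rw [← conj_zpow]
          apply Subgroup.zpow_mem
          rcases hg with rfl | rfl
          · rw [hbc]
            exact Subgroup.mul_mem _ (Subgroup.zpow_mem _ (Subgroup.mem_zpowers c) _)
              (Subgroup.mem_zpowers c)
          · rw [hxc, mul_inv_cancel_right]; exact Subgroup.mem_zpowers c
      have hDc : commutator R ≤ Subgroup.zpowers c :=
        commutator_le_of_gen hgen (Subgroup.zpowers c) (by
          rw [← hc]; exact Subgroup.mem_zpowers c)
      have hconj : ∀ g : R, ∃ u : ℤ, g * c * g⁻¹ = c ^ u := fun g => by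
        have := hCn.conj_mem c (Subgroup.mem_zpowers c) g
        obtain ⟨u, hu⟩ := Subgroup.mem_zpowers_iff.mp this
        exact ⟨u, hu.symm⟩
      have hsqz : ∀ i : ℤ, (c ^ i) ^ 2 = (c ^ 2) ^ i := by
        intro i
        rw [← zpow_natCast (c ^ i) 2, ← zpow_mul, mul_comm, zpow_mul, zpow_natCast]
      haveI hC2n : (Subgroup.zpowers (c ^ 2)).Normal := by
        constructor
        intro t ht g
        obtain ⟨j, rfl⟩ := Subgroup.mem_zpowers_iff.mp ht
        obtain ⟨u, hu⟩ := hconj g
        rw [← conj_zpow, ← conj_pow, hu, hsqz]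
        exact Subgroup.zpow_mem _ (Subgroup.zpow_mem _ (Subgroup.mem_zpowers _) _) _
      have hMC2 : M ≤ Subgroup.zpowers (c ^ 2) := by
        rw [hM]
        apply Subgroup.normalClosure_le_normal
        rw [hS₀]
        rintro y (⟨d, hd, rfl⟩ | ⟨d, hd, g, rfl⟩)
        · obtain ⟨i, rfl⟩ := Subgroup.mem_zpowers_iff.mp (hDc hd)
          rw [SetLike.mem_coe, hsqz]
          exact Subgroup.zpow_mem _ (Subgroup.mem_zpowers _) _
        · obtain ⟨i, rfl⟩ := Subgroup.mem_zpowers_iff.mp (hDc hd)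
          obtain ⟨u, hu⟩ := hconj g
          have h1 : ⁅c ^ i, g⁆ = c ^ (i * (1 - u)) := by
            rw [commutatorElement_def]
            have h2 : c ^ i * g * (c ^ i)⁻¹ * g⁻¹ = c ^ i * (g * c * g⁻¹) ^ (-i) := by
              rw [conj_zpow, zpow_neg]; group
            rw [h2, hu, ← zpow_mul, ← zpow_add]
            congr 1; ring
          rw [SetLike.mem_coe, h1]
          rcases Int.even_or_odd u with ⟨w, hw⟩ | ⟨w, hw⟩
          · have h2 : g * c * g⁻¹ ∈ Subgroup.zpowers (c ^ 2) := by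
              rw [hu, hw]
              have h3 : c ^ (w + w) = (c ^ 2) ^ w := by
                rw [← zpow_natCast c 2, ← zpow_mul]; congr 1; push_cast; ring
              rw [h3]; exact Subgroup.zpow_mem _ (Subgroup.mem_zpowers _) _
            have h3 : c ∈ Subgroup.zpowers (c ^ 2) := by
              have h4 := hC2n.conj_mem _ h2 g⁻¹
              have h5 : g⁻¹ * (g * c * g⁻¹) * g⁻¹⁻¹ = c := by group
              rwa [h5] at h4
            exact Subgroup.zpow_mem _ h3 _
          · have h2 : c ^ (i * (1 - u)) = (c ^ 2) ^ (-(i * w)) := by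
              rw [← zpow_natCast c 2, ← zpow_mul]; congr 1; rw [hw]; push_cast; ring
            rw [h2]; exact Subgroup.zpow_mem _ (Subgroup.mem_zpowers _) _
      have hc2 : c ^ 2 ∈ Subgroup.zpowers x := by
        rw [hcre]
        have hcomm : Commute (x ^ r) (z ^ e) :=
          Commute.zpow_left (Commute.zpow_right (hzcomm x) e) r
        rw [hcomm.mul_pow]
        have h1 : (z ^ e) ^ 2 = 1 := by
          rw [← zpow_natCast, ← zpow_mul, mul_comm, zpow_mul, zpow_natCast, hz2, one_zpow]
        rw [h1, mul_one]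
        exact Subgroup.pow_mem _ (Subgroup.zpow_mem _ (Subgroup.mem_zpowers x) _) _
      have hzx : z ∈ Subgroup.zpowers x := (Subgroup.zpowers_le.mpr hc2) (hMC2 hzM)
      refine ⟨x, hxΦ, ?_⟩
      intro d hd
      obtain ⟨i, e', rfl⟩ := hDle d hd
      exact Subgroup.mul_mem _ (Subgroup.zpow_mem _ (Subgroup.mem_zpowers x) _)
        (Subgroup.zpow_mem _ hzx _)

/-- A finite `2`-group of sectional `2`-rank at most `2` is metacyclic. -/
theorem metacyclic_of_sectional_two (R : Type u) [Group R] [Finite R] (hR : IsPGroup 2 R)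
    (hr : Cfsg.SectionalPRankLE 2 2 R) : Cfsg.IsMetacyclic R := by
  haveI : Fact (Nat.Prime 2) := ⟨Nat.prime_two⟩
  have hsb := secBound_of_sectional hr
  by_cases hcyc : IsCyclic R
  · refine ⟨⊤, inferInstance, ?_, ?_⟩
    · obtain ⟨g, hg⟩ := hcyc.exists_generator
      exact ⟨⟨⟨g, Subgroup.mem_top g⟩, fun x => by
        obtain ⟨k, hk⟩ := Subgroup.mem_zpowers_iff.mp (hg x.1)
        exact ⟨k, Subtype.ext (by simpa using hk)⟩⟩⟩
    · haveI : Subsingleton (R ⧸ (⊤ : Subgroup R)) := QuotientGroup.subsingleton_quotient_top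
      exact isCyclic_of_subsingleton
  · obtain ⟨x, hxΦ, hxD⟩ := exists_gen_commutator_two _ R rfl hR hsb hcyc
    have hNn : (Subgroup.zpowers x).Normal := by
      constructor
      intro n hn g
      have h1 : g * n * g⁻¹ * n⁻¹ ∈ Subgroup.zpowers x := hxD (comm_mem_commutator' g n)
      have : g * n * g⁻¹ = (g * n * g⁻¹ * n⁻¹) * n := by group
      rw [this]
      exact Subgroup.mul_mem _ h1 hn
    have hNc : IsCyclic (Subgroup.zpowers x) :=
      ⟨⟨⟨x, Subgroup.mem_zpowers x⟩, fun y => by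
        obtain ⟨k, hk⟩ := Subgroup.mem_zpowers_iff.mp y.2
        exact ⟨k, Subtype.ext (by simpa using hk)⟩⟩⟩
    refine ⟨Subgroup.zpowers x, hNn, hNc, ?_⟩
    have h4 : Nat.card R ≤ 2 ^ 2 * Nat.card (frattini R) := by
      have := hsb ⊤ (frattini R) le_top
        (fun h _ n hn => Subgroup.Normal.conj_mem inferInstance n hn h)
        (fun x _ => pow_mem_frattini hR x)
        (fun x _ y _ => commutator_le_frattini hR (comm_mem_commutator' x y))
      rwa [Subgroup.card_top] at this
    obtain ⟨b, hb⟩ := exists_not_mem_sup_frattini hcyc x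
    have hgen := sup_zpowers_eq_top hR h4 hxΦ hb
    haveI := hNn
    refine ⟨⟨(b : R ⧸ Subgroup.zpowers x), fun q => ?_⟩⟩
    obtain ⟨g, rfl⟩ := QuotientGroup.mk_surjective q
    have hg : g ∈ Subgroup.zpowers b ⊔ Subgroup.zpowers x := by
      rw [hgen]; exact Subgroup.mem_top g
    obtain ⟨y, hy, z, hz, rfl⟩ := Subgroup.mem_sup_of_normal_right.mp hg
    obtain ⟨i, rfl⟩ := Subgroup.mem_zpowers_iff.mp hy
    refine ⟨i, ?_⟩
    show (b : R ⧸ Subgroup.zpowers x) ^ i = ((b ^ i * z : R) : R ⧸ Subgroup.zpowers x)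
    rw [QuotientGroup.mk_mul, (QuotientGroup.eq_one_iff z).mpr hz, mul_one, QuotientGroup.mk_zpow]

end Cfsg.Agent.H3
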