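import Mathlib
import Cfsg.Agent.H64.MgDefs

/-!
# MG-B3T (S3620 piece for helper64): 3-transitivity from a primitive point stabilizer.
-/

set_option autoImplicit false
open scoped Pointwise
open MulAction

namespace Cfsg.Agent.H3.Mg

open Cfsg.Agent.H64.Mg

universe u v

theorem b3t_of (hM : M2KStmt.{u, v}) : B3TStmt.{u, v} := by
  intro M α _ _ _ _ hKT Δ hJC hΔ2 hΔ a ha hprim
  haveI hT : IsPretransitive M α := by
    refine ⟨fun x y => ?_⟩
    obtain ⟨g, -, hg⟩ := hKT ∅ (by simp) x (by simp) y (by simp)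
    exact ⟨g, hg⟩
  obtain ⟨s, hs⟩ : ∃ s : Set ↥(SubMulAction.ofStabilizer M a), s = {z : ↥(SubMulAction.ofStabilizer M a) | (z : α) ∈ Δ} :=
    ⟨_, rfl⟩
  have hsn : s.ncard = (Δ.card - 2) + 1 := by
    have h1 : Subtype.val '' s = ((Δ.erase a : Finset α) : Set α) := by
      ext z
      simp only [Set.mem_image, Finset.coe_erase, Set.mem_sdiff, Finset.mem_coe,
        Set.mem_singleton_iff]
      constructor
      · rintro ⟨w, hw, rfl⟩
        rw [hs] at hw
        exact ⟨hw, (SubMulAction.mem_ofStabilizer_iff M a).mp w.2⟩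
      · rintro ⟨hz, hza⟩
        exact ⟨⟨z, (SubMulAction.mem_ofStabilizer_iff M a).mpr hza⟩, by rw [hs]; exact hz, rfl⟩
    have h2 : (Subtype.val '' s).ncard = s.ncard :=
      Set.ncard_image_of_injective s Subtype.val_injective
    rw [← h2, h1, Set.ncard_coe_finset, Finset.card_erase_of_mem ha]
    omega
  have hsn' : (Δ.card - 2) + 2 < Nat.card ↥(SubMulAction.ofStabilizer M a) := by
    rw [SubMulAction.nat_card_ofStabilizer_eq M a, Nat.card_eq_fintype_card]
    omega
  have hs_trans : IsPretransitive (fixingSubgroup (stabilizer M a) s)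
      (SubMulAction.ofFixingSubgroup (stabilizer M a) s) := by
    refine ⟨?_⟩
    rintro ⟨x, hx⟩ ⟨y, hy⟩
    rw [SubMulAction.mem_ofFixingSubgroup_iff] at hx hy
    have hx' : (x : α) ∉ Δ := fun h => hx (by rw [hs]; exact h)
    have hy' : (y : α) ∉ Δ := fun h => hy (by rw [hs]; exact h)
    obtain ⟨g, hg, hgx⟩ := hJC _ hx' _ hy'
    have hga : g ∈ stabilizer M a := hg a ha
    refine ⟨⟨⟨g, hga⟩, ?_⟩, ?_⟩
    · rw [mem_fixingSubgroup_iff]
      intro z hz
      rw [hs] at hz
      apply Subtype.ext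
      exact hg _ hz
    · apply Subtype.ext
      apply Subtype.ext
      exact hgx
  have h2 : IsMultiplyPretransitive (stabilizer M a) (SubMulAction.ofStabilizer M a) 2 :=
    hprim.is_two_pretransitive hsn hsn' hs_trans
  have h3 : IsMultiplyPretransitive M α 3 :=
    SubMulAction.ofStabilizer.isMultiplyPretransitive.mpr h2
  exact hM M α 3 (by omega) h3

/-- The same with the (unused) `CONV1Stmt` hypothesis, in the order of the piece description. -/
theorem b3t_of2 (hM : M2KStmt.{u, v}) (_hC : CONV1Stmt.{u, v}) : B3TStmt.{u, v} := b3t_of hM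

example (hM : M2KStmt.{u, v}) : B3TStmt.{u, v} := b3t_of hM
example (hM : M2KStmt.{u, v}) (hC : CONV1Stmt.{u, v}) : B3TStmt.{u, v} := b3t_of2 hM hC

end Cfsg.Agent.H3.Mg
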