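import Mathlib
import Cfsg.Agent.H64.MgDefs

/-!
# MG-CONV1 (S3620 piece for helper64): `JC` in Mathlib language.
-/

set_option autoImplicit false
open scoped Pointwise
open MulAction

namespace Cfsg.Agent.H3.Mg

open Cfsg.Agent.H64.Mg

universe u v

theorem conv1 : CONV1Stmt.{u, v} := by
  intro M α _ _ Λ
  constructor
  · intro h
    refine ⟨?_⟩
    rintro ⟨x, hx⟩ ⟨y, hy⟩
    rw [SubMulAction.mem_ofFixingSubgroup_iff, Finset.mem_coe] at hx hy
    obtain ⟨g, hg, hgx⟩ := h x hx y hy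
    refine ⟨⟨g, (mem_fixingSubgroup_iff M).mpr (fun z hz => hg z (Finset.mem_coe.mp hz))⟩, ?_⟩
    exact Subtype.ext hgx
  · intro h x hx y hy
    obtain ⟨g, hg⟩ := h.exists_smul_eq
      (⟨x, (SubMulAction.mem_ofFixingSubgroup_iff M).mpr (fun hm => hx (Finset.mem_coe.mp hm))⟩ :
        SubMulAction.ofFixingSubgroup M (Λ : Set α))
      ⟨y, (SubMulAction.mem_ofFixingSubgroup_iff M).mpr (fun hm => hy (Finset.mem_coe.mp hm))⟩
    refine ⟨g.1, fun z hz => (mem_fixingSubgroup_iff M).mp g.2 z (Finset.mem_coe.mpr hz), ?_⟩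
    exact congrArg Subtype.val hg

example : CONV1Stmt.{u, v} := conv1

end Cfsg.Agent.H3.Mg
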