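import Mathlib
import Cfsg.Agent.H64.MgDefs

/-!
# MG-K2M (S3620 piece for helper64): `KT` gives Mathlib multiple transitivity.
-/

set_option autoImplicit false
open scoped Pointwise
open MulAction

namespace Cfsg.Agent.H3.Mg

open Cfsg.Agent.H64.Mg

universe u v

theorem k2m : K2MStmt.{u, v} := by
  intro M α _ _ k
  induction k with
  | zero =>
    intro _
    infer_instance
  | succ k ih =>
    intro h
    have hk : IsMultiplyPretransitive M α k := ih (h.mono (Nat.le_succ k))
    refine ⟨fun x y => ?_⟩
    classical
    obtain ⟨g1, hg1⟩ := hk.exists_smul_eq (Fin.castSuccEmb.trans x) (Fin.castSuccEmb.trans y)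
    have hg1' : ∀ j : Fin k, g1 • x (Fin.castSucc j) = y (Fin.castSucc j) := by
      intro j
      have h1 := DFunLike.congr_fun hg1 j
      rw [Function.Embedding.smul_apply] at h1
      exact h1
    obtain ⟨S, hS⟩ : ∃ S : Finset α,
        S = Finset.univ.image (fun j : Fin k => y (Fin.castSucc j)) := ⟨_, rfl⟩
    have hcard : S.card < k + 1 := by
      rw [hS]
      refine lt_of_le_of_lt Finset.card_image_le ?_
      rw [Finset.card_univ, Fintype.card_fin]
      exact Nat.lt_succ_self k
    have hJC := h S hcard
    have ha : g1 • x (Fin.last k) ∉ S := by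
      rw [hS, Finset.mem_image]
      rintro ⟨j, -, hj⟩
      rw [← hg1' j] at hj
      have h2 := x.injective (smul_left_cancel g1 hj)
      exact (Fin.castSucc_lt_last j).ne h2
    have hb : y (Fin.last k) ∉ S := by
      rw [hS, Finset.mem_image]
      rintro ⟨j, -, hj⟩
      exact (Fin.castSucc_lt_last j).ne (y.injective hj)
    obtain ⟨g2, hg2, hg2a⟩ := hJC _ ha _ hb
    refine ⟨g2 * g1, ?_⟩
    ext i
    rw [Function.Embedding.smul_apply, mul_smul]
    refine Fin.lastCases ?_ (fun j => ?_) i
    · exact hg2a
    · rw [hg1' j]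
      exact hg2 _ (by rw [hS]; exact Finset.mem_image_of_mem _ (Finset.mem_univ j))

example : K2MStmt.{u, v} := k2m

end Cfsg.Agent.H3.Mg
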