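import Mathlib
import Cfsg.Agent.H64.MgDefs
import Cfsg.Agent.H3.MgK2M
import Cfsg.Agent.S0711

/-!
# MG-U1 (S3620 piece for helper64): enough transitivity plus a Jordan set gives all even
permutations (via S0711).
-/

set_option autoImplicit false
open scoped Pointwise
open MulAction

namespace Cfsg.Agent.H3.Mg

open Cfsg.Agent.H64.Mg

universe u v

theorem u1_of (hK : K2MStmt.{u, v}) : U1Stmt.{u, v} := by
  intro M α _ _ _ _ k hKT hk3 hkn Δ hJC hΔ hcard
  have hMT : IsMultiplyPretransitive M α k := hK M α k hKT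
  obtain ⟨G, hG⟩ : ∃ G : Subgroup (Equiv.Perm α), G = (MulAction.toPermHom M α).range :=
    ⟨_, rfl⟩
  have hGT : IsMultiplyPretransitive ↥G α k := by
    refine ⟨fun x y => ?_⟩
    obtain ⟨g, hg⟩ := hMT.exists_smul_eq x y
    refine ⟨⟨MulAction.toPermHom M α g, by rw [hG]; exact ⟨g, rfl⟩⟩, ?_⟩
    ext i
    have h1 := DFunLike.congr_fun hg i
    rw [Function.Embedding.smul_apply] at h1 ⊢
    exact h1
  have hcompl : 2 ≤ (Finset.univ \ Δ).card := by
    rw [Finset.card_sdiff_of_subset (Finset.subset_univ Δ), Finset.card_univ]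
    omega
  obtain ⟨x, hx, y, hy, hxy⟩ := Finset.one_lt_card.mp hcompl
  have hx' : x ∉ Δ := (Finset.mem_sdiff.mp hx).2
  have hy' : y ∉ Δ := (Finset.mem_sdiff.mp hy).2
  obtain ⟨g, hg, hgx⟩ := hJC x hx' y hy'
  obtain ⟨σ, hσ⟩ : ∃ σ : Equiv.Perm α, σ = MulAction.toPermHom M α g := ⟨_, rfl⟩
  have hσapp : ∀ z, σ z = g • z := by
    intro z
    rw [hσ]
    rfl
  have hσG : σ ∈ G := by
    rw [hG, hσ]
    exact ⟨g, rfl⟩
  have hσ1 : σ ≠ 1 := by
    intro h
    have h1 := hσapp x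
    rw [h, hgx] at h1
    exact hxy h1
  have hsupp : σ.support.card < 2 * k - 2 := by
    have hsub : σ.support ⊆ Finset.univ \ Δ := by
      intro z hz
      rw [Finset.mem_sdiff]
      refine ⟨Finset.mem_univ z, fun hzΔ => ?_⟩
      rw [Equiv.Perm.mem_support, hσapp] at hz
      exact hz (hg z hzΔ)
    have h1 := Finset.card_le_card hsub
    rw [Finset.card_sdiff_of_subset (Finset.subset_univ Δ), Finset.card_univ] at h1
    omega
  have hres := (Cfsg.Agent.S0711.result G hk3 hkn hGT σ hσG hσ1 hsupp).2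
  intro τ hτ
  have hτG : τ ∈ G := hres (Equiv.Perm.mem_alternatingGroup.mpr hτ)
  rw [hG] at hτG
  obtain ⟨h, hh⟩ := hτG
  refine ⟨h, fun z => ?_⟩
  rw [← hh]
  rfl

theorem u1 : U1Stmt.{u, v} := u1_of k2m

example (hK : K2MStmt.{u, v}) : U1Stmt.{u, v} := u1_of hK
example : U1Stmt.{u, v} := u1

end Cfsg.Agent.H3.Mg
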