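import Mathlib
import Cfsg.Agent.H2.PrqDefs
import Cfsg.Agent.S0904
import Cfsg.Agent.S0183

set_option autoImplicit false

namespace Cfsg.Agent.H3.Prq

universe u

section

variable {G : Type*} [Group G] [Finite G]

/-- If every Sylow `s`-subgroup has order `s` and is self-centralizing, then anything commuting
with an element `y` of order `s` is a power of `y`. -/
theorem mem_zpowers_of_commute (s : ℕ) [Fact s.Prime]
    (hS : ∀ S : Sylow s G, Nat.card (S : Subgroup G) = s ∧
      Subgroup.centralizer ((S : Subgroup G) : Set G) = (S : Subgroup G))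
    (y : G) (hy : orderOf y = s) (g : G) (hg : Commute g y) : g ∈ Subgroup.zpowers y := by
  have hpg : IsPGroup s (Subgroup.zpowers y) := by
    apply IsPGroup.of_card (n := 1)
    rw [Nat.card_zpowers, hy, pow_one]
  obtain ⟨S, hle⟩ := hpg.exists_le_sylow
  have heq : Subgroup.zpowers y = (S : Subgroup G) := by
    apply Subgroup.eq_of_le_of_card_ge hle
    rw [(hS S).1, Nat.card_zpowers, hy]
  have hmem : g ∈ Subgroup.centralizer ((S : Subgroup G) : Set G) := by
    rw [Subgroup.mem_centralizer_iff]
    intro z hz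
    have hz' : z ∈ Subgroup.zpowers y := by rw [heq]; exact hz
    obtain ⟨k, rfl⟩ := Subgroup.mem_zpowers_iff.1 hz'
    exact ((hg.zpow_right k).eq).symm
  rw [(hS S).2, ← heq] at hmem
  exact hmem

theorem nilpotent_centralizer_of_dvd (s : ℕ) [Fact s.Prime]
    (hS : ∀ S : Sylow s G, Nat.card (S : Subgroup G) = s ∧
      Subgroup.centralizer ((S : Subgroup G) : Set G) = (S : Subgroup G))
    (x : G) (hx : s ∣ orderOf x) :
    Group.IsNilpotent (Subgroup.centralizer ({x} : Set G)) := by
  obtain ⟨y, hy⟩ : ∃ y : G, y = x ^ (orderOf x / s) := ⟨_, rfl⟩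
  have hyo : orderOf y = s := by
    rw [hy]; exact orderOf_pow_orderOf_div (orderOf_pos x).ne' hx
  have hle : Subgroup.centralizer ({x} : Set G) ≤ Subgroup.zpowers y := by
    intro g hg
    have hgx : Commute g x := by
      have := Subgroup.mem_centralizer_iff.1 hg x (Set.mem_singleton x)
      exact this.symm
    apply mem_zpowers_of_commute s hS y hyo g
    rw [hy]
    exact hgx.pow_right _
  have hpg : IsPGroup s (Subgroup.zpowers y) := by
    apply IsPGroup.of_card (n := 1)
    rw [Nat.card_zpowers, hyo, pow_one]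
  exact (hpg.to_le hle).isNilpotent

theorem not_dvd_card_centralizer (s : ℕ) [Fact s.Prime]
    (hS : ∀ S : Sylow s G, Nat.card (S : Subgroup G) = s ∧
      Subgroup.centralizer ((S : Subgroup G) : Set G) = (S : Subgroup G))
    (x : G) (hx1 : x ≠ 1) (hx : ¬ s ∣ orderOf x) :
    ¬ s ∣ Nat.card (Subgroup.centralizer ({x} : Set G)) := by
  have hs : s.Prime := Fact.out
  intro hdvd
  obtain ⟨y, hy⟩ := exists_prime_orderOf_dvd_card' s hdvd
  have hyo : orderOf (y : G) = s := by rw [Subgroup.orderOf_coe]; exact hy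
  have hcomm : Commute x (y : G) := by
    have := Subgroup.mem_centralizer_iff.1 y.2 x (Set.mem_singleton x)
    exact this
  have hmem := mem_zpowers_of_commute s hS (y : G) hyo x hcomm
  have hdvd2 : orderOf x ∣ s := by
    rw [← hyo]; exact orderOf_dvd_of_mem_zpowers hmem
  rcases (Nat.dvd_prime hs).1 hdvd2 with h | h
  · exact hx1 (orderOf_eq_one_iff.1 h)
  · exact hx (h ▸ dvd_rfl)

end

/-- S0998-ODD: no non-cyclic simple group of odd order `p r q^b`. -/
theorem odd : Cfsg.Agent.H2.Prq.StmtOdd.{u} := by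
  intro G _ _ _ hcyc p q r b hp hq hr hpq hpr hqr hcard hodd
  haveI : Fact p.Prime := ⟨hp⟩
  haveI : Fact q.Prime := ⟨hq⟩
  haveI : Fact r.Prime := ⟨hr⟩
  have hG0 : Nat.card G ≠ 0 := Nat.card_pos.ne'
  have hfp : (Nat.card G).factorization p = 1 := by
    rw [hcard, Nat.factorization_mul (Nat.mul_ne_zero hp.ne_zero hr.ne_zero)
      (pow_ne_zero _ hq.ne_zero), Nat.factorization_mul hp.ne_zero hr.ne_zero,
      Nat.factorization_pow, hp.factorization, hr.factorization, hq.factorization]
    simp [hpr.symm, hpq.symm]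
  have hfr : (Nat.card G).factorization r = 1 := by
    rw [hcard, Nat.factorization_mul (Nat.mul_ne_zero hp.ne_zero hr.ne_zero)
      (pow_ne_zero _ hq.ne_zero), Nat.factorization_mul hp.ne_zero hr.ne_zero,
      Nat.factorization_pow, hp.factorization, hr.factorization, hq.factorization]
    simp [hpr, hqr]
  have hSp : ∀ S : Sylow p G, Nat.card (S : Subgroup G) = p ∧
      Subgroup.centralizer ((S : Subgroup G) : Set G) = (S : Subgroup G) := by
    intro S
    refine ⟨?_, ?_⟩
    · rw [Sylow.card_eq_multiplicity, hfp, pow_one]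
    · exact Cfsg.Agent.S0904.result r q p 1 b hr hq hqr.symm hpr.symm hpq.symm
        (by rw [hcard]; ring) S
  have hSr : ∀ S : Sylow r G, Nat.card (S : Subgroup G) = r ∧
      Subgroup.centralizer ((S : Subgroup G) : Set G) = (S : Subgroup G) := by
    intro S
    refine ⟨?_, ?_⟩
    · rw [Sylow.card_eq_multiplicity, hfr, pow_one]
    · exact Cfsg.Agent.S0904.result p q r 1 b hp hq hpq hpr hqr
        (by rw [hcard]; ring) S
  have hCN : Cfsg.IsCNGroup G := by
    intro x hx1
    by_cases h1 : p ∣ orderOf x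
    · exact nilpotent_centralizer_of_dvd p hSp x h1
    by_cases h2 : r ∣ orderOf x
    · exact nilpotent_centralizer_of_dvd r hSr x h2
    have hnp := not_dvd_card_centralizer p hSp x hx1 h1
    have hnr := not_dvd_card_centralizer r hSr x hx1 h2
    have hdvd : Nat.card (Subgroup.centralizer ({x} : Set G)) ∣ p * r * q ^ b := by
      rw [← hcard]; exact Subgroup.card_subgroup_dvd_card _
    have hcp : (Nat.card (Subgroup.centralizer ({x} : Set G))).Coprime p :=
      (Nat.Coprime.symm ((Nat.Prime.coprime_iff_not_dvd hp).2 hnp))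
    have hcr : (Nat.card (Subgroup.centralizer ({x} : Set G))).Coprime r :=
      (Nat.Coprime.symm ((Nat.Prime.coprime_iff_not_dvd hr).2 hnr))
    have hdvd2 : Nat.card (Subgroup.centralizer ({x} : Set G)) ∣ q ^ b := by
      have h3 : Nat.card (Subgroup.centralizer ({x} : Set G)) ∣ p * (r * q ^ b) := by
        rw [← mul_assoc]; exact hdvd
      exact hcr.dvd_of_dvd_mul_left (hcp.dvd_of_dvd_mul_left h3)
    obtain ⟨j, _, hj⟩ := (Nat.dvd_prime_pow hq).1 hdvd2
    exact (IsPGroup.of_card hj).isNilpotent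
  have hsolv : Group.IsSolvable G := Cfsg.Agent.S0183.result hodd hCN
  have hcomm : ∀ a b : G, a * b = b * a := IsSimpleGroup.comm_iff_isSolvable.2 hsolv
  apply hcyc
  obtain ⟨x, hx⟩ := exists_ne (1 : G)
  haveI : (Subgroup.zpowers x).Normal := by
    constructor
    intro n hn g
    rw [hcomm g n, mul_inv_cancel_right]
    exact hn
  rcases Subgroup.Normal.eq_bot_or_eq_top ‹(Subgroup.zpowers x).Normal› with h | h
  · exact absurd (Subgroup.zpowers_eq_bot.1 h) hx
  · exact isCyclic_iff_exists_zpowers_eq_top.2 ⟨x, h⟩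

example : Cfsg.Agent.H2.Prq.StmtOdd.{u} := odd

end Cfsg.Agent.H3.Prq
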