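import Mathlib
import Cfsg.Agent.H97.Sp4Defs

/-!
# S2460 piece K6A (helper3, for helper97): no Jordan block of size 3 in `Sp_4`
-/

set_option autoImplicit false

namespace Cfsg.Agent.H3.Sp4

open Matrix Cfsg.Agent.H97.Sp4

variable {F : Type*} [Field F] {V : Type*} [AddCommGroup V] [Module F V]

/-- an alternating form is antisymmetric -/
theorem sp4_antisymm {B : LinearMap.BilinForm F V} (halt : ∀ v, B v v = 0) (u v : V) :
    B u v = - B v u := by
  have h := halt (u + v)
  simp only [map_add, LinearMap.add_apply, halt, zero_add, add_zero] at h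
  linear_combination h

/-- in a space of dimension four, a nilpotent `N` with `N³ = 0` has `N²` of rank at most one -/
theorem sp4_sq_rank_le_one (hdim : Module.finrank F V = 4) (N : Module.End F V)
    (hN3 : ∀ v, N (N (N v)) = 0) (x y : V) :
    ¬ LinearIndependent F ![N (N x), N (N y)] := by
  intro hli
  rw [LinearIndependent.pair_iff] at hli
  haveI : Module.Finite F V := Module.finite_of_finrank_pos (by rw [hdim]; norm_num)
  have h6 : LinearIndependent F ![x, N x, N (N x), y, N y, N (N y)] := by
    rw [Fintype.linearIndependent_iff]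
    intro c hc
    simp only [Fin.sum_univ_six, Matrix.cons_val_zero, Matrix.cons_val_one] at hc
    have hc' : c 0 • x + c 1 • N x + c 2 • N (N x) + c 3 • y + c 4 • N y + c 5 • N (N y) = 0 := by
      simpa using hc
    have e1 := congrArg (fun v => N (N v)) hc'
    simp only [map_add, map_smul, hN3, smul_zero, add_zero, map_zero] at e1
    obtain ⟨h0, h3'⟩ := hli (c 0) (c 3) e1
    rw [h0, h3'] at hc'
    simp only [zero_smul, zero_add, add_zero] at hc'
    have e2 := congrArg (fun v => N v) hc'
    simp only [map_add, map_smul, hN3, smul_zero, add_zero, map_zero] at e2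
    obtain ⟨h1, h4⟩ := hli (c 1) (c 4) e2
    rw [h1, h4] at hc'
    simp only [zero_smul, zero_add, add_zero] at hc'
    obtain ⟨h2, h5⟩ := hli (c 2) (c 5) hc'
    intro i
    fin_cases i <;> simp [h0, h1, h2, h3', h4, h5]
  have := h6.fintype_card_le_finrank
  rw [hdim] at this
  simp at this

theorem sq_zero_of_cube_zero {B : LinearMap.BilinForm F V} {g : Module.End F V} (h : SpData B g)
    (h3 : (g - 1) * ((g - 1) * (g - 1)) = 0) : (g - 1) * (g - 1) = 0 := by
  obtain ⟨N, hN⟩ : ∃ N : Module.End F V, N = g - 1 := ⟨_, rfl⟩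
  rw [← hN] at h3 ⊢
  have hg : g = 1 + N := by rw [hN]; abel
  have hN3 : ∀ v, N (N (N v)) = 0 := fun v => by
    have := congrArg (fun f : Module.End F V => f v) h3
    simpa [Module.End.mul_apply] using this
  have hgv : ∀ v, g v = v + N v := fun v => by rw [hg]; simp
  -- (a) the adjoint of `N`
  have ha : ∀ u v, B (N u) v = B u (N (N v)) - B u (N v) := by
    intro u v
    have hw : g (v - N v + N (N v)) = v := by
      rw [hgv]; simp only [map_add, map_sub, hN3]; abel
    have h1 : B (g u) v = B u (v - N v + N (N v)) := by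
      conv_lhs => rw [← hw]
      exact h.isom u _
    rw [hgv] at h1
    simp only [map_add, map_sub, LinearMap.add_apply] at h1
    linear_combination h1
  -- (b)
  have hb : ∀ u, B u (N (N u)) = 0 := by
    intro u
    have h1 := ha u (N u)
    rw [h.alt, hN3, map_zero] at h1
    linear_combination h1
  -- (d)
  by_contra hne
  obtain ⟨x₀, hx₀⟩ : ∃ x₀, N (N x₀) ≠ 0 := by
    by_contra hall
    push Not at hall
    apply hne
    ext v
    simpa [Module.End.mul_apply] using hall v
  obtain ⟨n, hn⟩ : ∃ n, n = N (N x₀) := ⟨_, rfl⟩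
  rw [← hn] at hx₀
  have key : ∀ v, N (N v) = 0 ∨ B v n = 0 := by
    intro v
    have hdep := sp4_sq_rank_le_one h.dim N hN3 x₀ v
    rw [LinearIndependent.pair_iff] at hdep
    push Not at hdep
    obtain ⟨s, t, hst, hne'⟩ := hdep
    rw [← hn] at hst
    have ht : t ≠ 0 := by
      intro ht
      rw [ht, zero_smul, add_zero] at hst
      have hs : s = 0 := by
        rcases smul_eq_zero.mp hst with hs | hs
        · exact hs
        · exact absurd hs hx₀
      exact hne' hs ht
    have hv : N (N v) = (-(s / t)) • n := by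
      have : t • N (N v) = -(s • n) := by
        rw [eq_neg_iff_add_eq_zero, add_comm]; exact hst
      calc N (N v) = t⁻¹ • (t • N (N v)) := by rw [smul_smul, inv_mul_cancel₀ ht, one_smul]
        _ = (-(s / t)) • n := by rw [this, smul_neg, smul_smul, neg_smul]; congr 2; field_simp
    have h0 := hb v
    rw [hv, map_smul, smul_eq_mul] at h0
    rcases mul_eq_zero.mp h0 with h1 | h1
    · left; rw [hv, h1, zero_smul]
    · right; exact h1
  -- a vector with `B v₂ n ≠ 0`
  obtain ⟨v₂, hv₂⟩ : ∃ v₂, B v₂ n ≠ 0 := by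
    by_contra hall
    push Not at hall
    apply hx₀
    have hnd := h.nondeg
    have h0 : ∀ v, B n v = 0 := fun v => by rw [sp4_antisymm h.alt, hall, neg_zero]
    exact hnd.1 n h0
  have h1 : B x₀ n = 0 := (key x₀).resolve_left (by rw [← hn]; exact hx₀)
  have h2 : N (N v₂) = 0 := (key v₂).resolve_right hv₂
  rcases key (x₀ + v₂) with h | h
  · rw [map_add, map_add, h2, add_zero, ← hn] at h
    exact hx₀ h
  · rw [map_add, LinearMap.add_apply, h1, zero_add] at h
    exact hv₂ h

end Cfsg.Agent.H3.Sp4

example {F : Type*} [Field F] {V : Type*} [AddCommGroup V] [Module F V]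
    {B : LinearMap.BilinForm F V} {g : Module.End F V} (h : Cfsg.Agent.H97.Sp4.SpData B g)
    (h3 : (g - 1) * ((g - 1) * (g - 1)) = 0) : (g - 1) * (g - 1) = 0 :=
  Cfsg.Agent.H3.Sp4.sq_zero_of_cube_zero h h3
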