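import Mathlib
import Cfsg.Agent.H97.Sp4Defs
import Cfsg.Agent.H3.Sp4K6A

/-!
# S2460 piece K5B (helper3, for helper97): isometries with a quadratic minimal polynomial
-/

set_option autoImplicit false

namespace Cfsg.Agent.H3.Sp4

open Matrix Cfsg.Agent.H97.Sp4

variable {F : Type*} [Field F] {V : Type*} [AddCommGroup V] [Module F V]

/-- the end game of both halves of `quad_data`: `2 g w = c w` on a nonzero vector is impossible -/
theorem sp4_quad_aux {g : Module.End F V} (c : F)
    (hgg : ∀ v, g (g v) = c • g v - v) (hc : c ≠ 2) (hc' : c ≠ -2)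
    (w : V) (hw : w ≠ 0) (h2 : (2 : F) • g w = c • w) : False := by
  by_cases h20 : (2 : F) = 0
  · rw [h20, zero_smul] at h2
    have hc0 : c = 0 := by
      rcases smul_eq_zero.mp h2.symm with h | h
      · exact h
      · exact absurd h hw
    exact hc (by rw [hc0, h20])
  · have hgw : g w = (c / 2) • w := by
      calc g w = (2 : F)⁻¹ • ((2 : F) • g w) := by rw [smul_smul, inv_mul_cancel₀ h20, one_smul]
        _ = (c / 2) • w := by rw [h2, smul_smul]; congr 1; field_simp
    have h1 := hgg w
    rw [hgw, map_smul, hgw, smul_smul, smul_smul] at h1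
    have h3 : ((c / 2) * (c / 2) - c * (c / 2) + 1) • w = 0 := by
      rw [add_smul, sub_smul, one_smul, h1]; abel
    have h4 : (c / 2) * (c / 2) - c * (c / 2) + 1 = 0 := by
      rcases smul_eq_zero.mp h3 with h | h
      · exact h
      · exact absurd h hw
    have h5 : (c - 2) * (c + 2) = 0 := by
      field_simp at h4
      linear_combination -h4
    rcases mul_eq_zero.mp h5 with h | h
    · exact hc (sub_eq_zero.mp h)
    · exact hc' (eq_neg_of_add_eq_zero_left h)

theorem quad_data {B : LinearMap.BilinForm F V} {g : Module.End F V} (h : SpData B g) (c : F)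
    (hrel : g * g - c • g + 1 = 0) (hc : c ≠ 2) (hc' : c ≠ -2) (hns : ∀ a : F, g ≠ a • 1) :
    ∃ w₁ w₂ : V, B w₁ w₂ = 0 ∧ B w₁ (g w₁) ≠ 0 ∧ B w₂ (g w₂) ≠ 0 ∧ B w₁ (g w₂) = 0 ∧
      B w₂ (g w₁) = 0 := by
  classical
  have hanti := sp4_antisymm h.alt
  haveI : Module.Finite F V := Module.finite_of_finrank_pos (by rw [h.dim]; norm_num)
  have hgg : ∀ v, g (g v) = c • g v - v := by
    intro v
    have h1 := congrArg (fun f : Module.End F V => f v) hrel
    simp only [LinearMap.add_apply, LinearMap.sub_apply, Module.End.mul_apply,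
      LinearMap.smul_apply, Module.End.one_apply, LinearMap.zero_apply] at h1
    calc g (g v) = (g (g v) - c • g v + v) + (c • g v - v) := by abel
      _ = c • g v - v := by rw [h1, zero_add]
  -- the adjoint identity
  have hA : ∀ u v, B (g u) v + B u (g v) = c * B u v := by
    intro u v
    have h1 := h.isom u (c • v - g v)
    have h2 : g (c • v - g v) = v := by
      rw [map_sub, map_smul, hgg]; abel
    rw [h2] at h1
    rw [h1, map_sub, map_smul, smul_eq_mul]; ring
  -- a nonzero vector exists
  obtain ⟨v₀, hv₀⟩ : ∃ v₀ : V, v₀ ≠ 0 := by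
    by_contra hall
    push Not at hall
    have : Module.finrank F V = 0 := by
      haveI : Subsingleton V := ⟨fun a b => by rw [hall a, hall b]⟩
      exact Module.finrank_zero_of_subsingleton
    rw [h.dim] at this
    norm_num at this
  -- STEP 1
  obtain ⟨u, hu⟩ : ∃ u, B u (g u) ≠ 0 := by
    by_contra hQ
    push Not at hQ
    have hpol : ∀ u v, B u (g v) + B v (g u) = 0 := by
      intro u v
      have h1 := hQ (u + v)
      simp only [map_add, LinearMap.add_apply, hQ, zero_add, add_zero] at h1
      linear_combination h1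
    have h2 : ∀ u v, 2 * B u (g v) = c * B u v := by
      intro u v
      have h1 := hpol u v
      have h3 := hanti v (g u)
      have h4 := hA u v
      linear_combination h4 + h1 - h3
    have h5 : ∀ v, (2 : F) • g v = c • v := by
      intro v
      have h6 : (2 : F) • g v - c • v = 0 := by
        apply h.nondeg.1
        intro w
        rw [hanti, map_sub, map_smul, map_smul, smul_eq_mul, smul_eq_mul, h2 w v]
        ring
      exact sub_eq_zero.mp h6
    exact sp4_quad_aux c hgg hc hc' v₀ hv₀ (h5 v₀)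
  obtain ⟨q, hq⟩ : ∃ q, q = B u (g u) := ⟨_, rfl⟩
  rw [← hq] at hu
  by_contra hno
  have hQW : ∀ w, B u w = 0 → B (g u) w = 0 → B w (g w) = 0 := by
    intro w h1 h2
    by_contra h3
    apply hno
    refine ⟨u, w, h1, by rw [← hq]; exact hu, h3, ?_, ?_⟩
    · have := hA u w
      rw [h1, h2] at this
      linear_combination this
    · rw [hanti, h2, neg_zero]
  -- `W` is `g`-invariant
  have hWg : ∀ w, B u w = 0 → B (g u) w = 0 → B u (g w) = 0 ∧ B (g u) (g w) = 0 := by
    intro w h1 h2
    refine ⟨?_, ?_⟩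
    · have := hA u w
      rw [h1, h2] at this
      linear_combination this
    · rw [h.isom, h1]
  have hpolW : ∀ w w', B u w = 0 → B (g u) w = 0 → B u w' = 0 → B (g u) w' = 0 →
      B w (g w') + B w' (g w) = 0 := by
    intro w w' h1 h2 h1' h2'
    have h3 := hQW (w + w') (by rw [map_add, h1, h1', add_zero]) (by rw [map_add, h2, h2', add_zero])
    simp only [map_add, LinearMap.add_apply, hQW w h1 h2, hQW w' h1' h2', zero_add, add_zero] at h3
    linear_combination h3
  have h2W : ∀ w w', B u w = 0 → B (g u) w = 0 → B u w' = 0 → B (g u) w' = 0 →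
      2 * B w (g w') = c * B w w' := by
    intro w w' h1 h2 h1' h2'
    have h3 := hpolW w w' h1 h2 h1' h2'
    have h4 := hanti w' (g w)
    have h5 := hA w w'
    linear_combination h5 + h3 - h4
  -- the decomposition `V = P ⊕ W`
  have hdec : ∀ v : V, ∃ (a b : F) (w : V), B u w = 0 ∧ B (g u) w = 0 ∧
      v = a • u + b • g u + w := by
    intro v
    refine ⟨-(B (g u) v) / q, B u v / q, v - (-(B (g u) v) / q) • u - (B u v / q) • g u, ?_, ?_, ?_⟩
    · simp only [map_sub, map_smul, smul_eq_mul, h.alt, ← hq]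
      field_simp
      ring
    · have h1 : B (g u) u = -q := by rw [hanti, hq]
      simp only [map_sub, map_smul, smul_eq_mul, h.alt, h1]
      field_simp
      ring
    · abel
  -- `2 g w = c w` on `W`
  have h5 : ∀ w', B u w' = 0 → B (g u) w' = 0 → (2 : F) • g w' = c • w' := by
    intro w' h1' h2'
    obtain ⟨h1g, h2g⟩ := hWg w' h1' h2'
    have hy1 : B u ((2 : F) • g w' - c • w') = 0 := by
      rw [map_sub, map_smul, map_smul, h1g, h1', smul_zero, smul_zero, sub_zero]
    have hy2 : B (g u) ((2 : F) • g w' - c • w') = 0 := by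
      rw [map_sub, map_smul, map_smul, h2g, h2', smul_zero, smul_zero, sub_zero]
    have h6 : (2 : F) • g w' - c • w' = 0 := by
      apply h.nondeg.1
      intro v
      rw [hanti]
      obtain ⟨a, b, w, hw1, hw2, hv⟩ := hdec v
      have hw3 : B w ((2 : F) • g w' - c • w') = 0 := by
        rw [map_sub, map_smul, map_smul, smul_eq_mul, smul_eq_mul, h2W w w' hw1 hw2 h1' h2']
        ring
      rw [hv]
      simp only [map_add, map_smul, LinearMap.add_apply, LinearMap.smul_apply, smul_eq_mul, hy1,
        hy2, hw3]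
      ring
    exact sub_eq_zero.mp h6
  -- a nonzero vector of `W`
  have hspan : Submodule.span F (({u, g u} : Finset V) : Set V) ≠ ⊤ := by
    intro htop
    have h1 : Module.finrank F (Submodule.span F (({u, g u} : Finset V) : Set V)) ≤
        ({u, g u} : Finset V).card := finrank_span_finset_le_card (R := F) ({u, g u} : Finset V)
    rw [htop, finrank_top, h.dim] at h1
    have h2 : ({u, g u} : Finset V).card ≤ 2 := Finset.card_le_two
    omega
  obtain ⟨v, hv⟩ : ∃ v, v ∉ Submodule.span F (({u, g u} : Finset V) : Set V) := by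
    by_contra hall
    push Not at hall
    exact hspan (eq_top_iff.mpr fun v _ => hall v)
  obtain ⟨a, b, w, hw1, hw2, hvw⟩ := hdec v
  have hw0 : w ≠ 0 := by
    intro hw0
    apply hv
    rw [hvw, hw0, add_zero]
    refine Submodule.add_mem _ (Submodule.smul_mem _ _ (Submodule.subset_span ?_))
      (Submodule.smul_mem _ _ (Submodule.subset_span ?_))
    · simp
    · simp
  exact sp4_quad_aux c hgg hc hc' w hw0 (h5 w hw1 hw2)

end Cfsg.Agent.H3.Sp4

example {F : Type*} [Field F] {V : Type*} [AddCommGroup V] [Module F V]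
    {B : LinearMap.BilinForm F V} {g : Module.End F V} (h : Cfsg.Agent.H97.Sp4.SpData B g) (c : F)
    (hrel : g * g - c • g + 1 = 0) (hc : c ≠ 2) (hc' : c ≠ -2) (hns : ∀ a : F, g ≠ a • 1) :
    ∃ w₁ w₂ : V, B w₁ w₂ = 0 ∧ B w₁ (g w₁) ≠ 0 ∧ B w₂ (g w₂) ≠ 0 ∧ B w₁ (g w₂) = 0 ∧
      B w₂ (g w₁) = 0 :=
  Cfsg.Agent.H3.Sp4.quad_data h c hrel hc hc' hns
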