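import Mathlib
import Cfsg.Agent.H88.StNDefs
import Cfsg.Agent.H49.MinusForm
import Cfsg.Agent.H49.Summand
import Cfsg.Agent.H49.SimpleForms
import Cfsg.Agent.S0288

/-!
# S2549-SYLB: a `p`-subgroup of `Ω⁻_{2(m+1)}(q)` of order at least `q ^ (m (m+1))` has
index prime to `p` (helper3, for helper88; the proof follows helper62's S2548-SYLB)
-/

set_option autoImplicit false
set_option linter.style.haveILetI false
set_option linter.unusedSimpArgs false
set_option linter.unusedSectionVars false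
set_option linter.unusedVariables false

namespace Cfsg.Agent.H3.StN

open Matrix Cfsg.Agent.H88.StN

variable {F : Type*} [Field F]

theorem sylb_not_dvd_pow_sub_one (p q k : ℕ) (hp : p.Prime) (hq : p ∣ q) (hq0 : 0 < q)
    (hk : 1 ≤ k) : ¬ p ∣ q ^ k - 1 := by
  intro hd
  have h1 : p ∣ q ^ k := dvd_trans hq (dvd_pow_self q (by omega))
  have h2 : 1 ≤ q ^ k := Nat.one_le_pow _ _ hq0
  have h3 : q ^ k = (q ^ k - 1) + 1 := by omega
  rw [h3] at h1
  have h4 : p ∣ 1 := (Nat.dvd_add_right hd).mp h1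
  exact hp.one_lt.ne' (Nat.dvd_one.mp h4)

theorem sylb_not_dvd_pow_add_one (p q k : ℕ) (hp : p.Prime) (hq : p ∣ q)
    (hk : 1 ≤ k) : ¬ p ∣ q ^ k + 1 := by
  intro hd
  have h1 : p ∣ q ^ k := dvd_trans hq (dvd_pow_self q (by omega))
  have h4 : p ∣ 1 := (Nat.dvd_add_right h1).mp hd
  exact hp.one_lt.ne' (Nat.dvd_one.mp h4)

theorem sylb_not_dvd_factor (p q M : ℕ) (hp : p.Prime) (hq : p ∣ q) (hq0 : 0 < q)
    (hM : 1 ≤ M) :
    ¬ p ∣ (q ^ M + 1) * ∏ i ∈ Finset.range (M - 1), (q ^ (2 * (i + 1)) - 1) := by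
  intro hd
  rcases (Nat.Prime.dvd_mul hp).mp hd with h | h
  · exact sylb_not_dvd_pow_add_one p q M hp hq hM h
  · obtain ⟨i, -, hi⟩ := (Prime.dvd_finsetProd_iff hp.prime _).mp h
    exact sylb_not_dvd_pow_sub_one p q _ hp hq hq0 (by omega) hi

/-- In characteristic two the commutator subgroup of `O⁻` has order dividing `|O⁻| / 2`. -/
theorem sylb_card_omega_dvd_two (h2 : (2 : F) = 0) [Fintype F] (m : ℕ) (a b : F)
    (hd : a ^ 2 - 4 * b ≠ 0) (N : ℕ)
    (hN : Nat.card ↥(Cfsg.isometryGroup F (Cfsg.quadFormMinus m F a b)) = 2 * N) :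
    Nat.card ↥(Cfsg.Omega F (Cfsg.quadFormMinus m F a b)) ∣ N := by
  classical
  obtain ⟨f, hf⟩ : ∃ f : ↥(Cfsg.isometryGroup F (Cfsg.quadFormMinus m F a b)) →* ℤˣ,
      ∃ g, f g = -1 := by
    refine ⟨Cfsg.Agent.H49.dicksonHom (Cfsg.Agent.H49.QMin m F a b) h2
      (Cfsg.Agent.H49.QMin_nondeg m a b hd),
      Cfsg.Agent.H49.reflG (Cfsg.Agent.H49.QMin m F a b) (Pi.single (Sum.inr 0) 1), ?_⟩
    apply Cfsg.Agent.H49.dicksonHom_reflG
    have hQe : Cfsg.Agent.H49.QMin m F a b (Pi.single (Sum.inr 0) 1) = 1 := by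
      show Cfsg.Agent.H49.sumQ (Cfsg.Agent.H49.QP m F) (Cfsg.Agent.H49.binQ a b)
        (Pi.single (Sum.inr 0) 1) = 1
      rw [Cfsg.Agent.H49.sumQ_apply, Cfsg.Agent.H49.binQ_apply]
      have h0 : (Pi.single (Sum.inr 0) 1 : (Fin m ⊕ Fin m) ⊕ Fin 2 → F) ∘ Sum.inl = 0 := by
        funext i
        simp
      rw [h0, QuadraticMap.map_zero]
      simp
    rw [hQe]
    exact one_ne_zero
  obtain ⟨g, hg⟩ := hf
  have hrange : f.range = ⊤ := by
    rw [eq_top_iff]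
    intro u _
    rcases Int.units_eq_one_or u with h | h
    · rw [h]; exact one_mem _
    · rw [h]; exact ⟨g, hg⟩
  have hidx : f.ker.index = 2 := by
    rw [Subgroup.index_ker, hrange, Nat.card_congr (Subgroup.topEquiv (G := ℤˣ)).toEquiv]
    simp
  have hker : Nat.card f.ker = N := by
    have h1 := Subgroup.card_mul_index f.ker
    rw [hidx, hN] at h1
    omega
  have hle : Cfsg.Omega F (Cfsg.quadFormMinus m F a b) ≤ f.ker :=
    Abelianization.commutator_subset_ker f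
  rw [← hker]
  exact Subgroup.card_dvd_of_le hle

theorem ominus_sylow [Fintype F] (p : ℕ) [Fact p.Prime] [CharP F p] (m : ℕ) (hm : 3 ≤ m)
    (a b : F)
    (hab : ∀ z₁ z₂ : F, z₁ ^ 2 + a * z₁ * z₂ + b * z₂ ^ 2 = 0 → z₁ = 0 ∧ z₂ = 0)
    (U' : Subgroup ↥(Cfsg.Omega F (Cfsg.quadFormMinus m F a b))) (hU' : IsPGroup p U')
    (hcard : Fintype.card F ^ (m * (m + 1)) ≤ Nat.card U') : ¬ p ∣ U'.index := by
  classical
  have hp : p.Prime := Fact.out
  intro hdvd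
  obtain ⟨f, -, hq⟩ := FiniteField.card F p
  obtain ⟨q, hqdef⟩ : ∃ q, q = Fintype.card F := ⟨_, rfl⟩
  rw [← hqdef] at hq hcard
  have hpq : p ∣ q := by rw [hq]; exact dvd_pow_self p f.ne_zero
  have hq0 : 0 < q := by rw [hq]; exact pos_of_gt (Nat.one_lt_pow f.ne_zero hp.one_lt)
  obtain ⟨R, hRdef⟩ : ∃ R, R = (q ^ (m + 1) + 1)
      * ∏ i ∈ Finset.range (m + 1 - 1), (q ^ (2 * (i + 1)) - 1) := ⟨_, rfl⟩
  have hR : ¬ p ∣ R := by
    rw [hRdef]; exact sylb_not_dvd_factor p q (m + 1) hp hpq hq0 (by omega)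
  have hO : Nat.card ↥(Cfsg.isometryGroup F (Cfsg.quadFormMinus m F a b))
      = 2 * (q ^ (m * (m + 1)) * R) := by
    have h288 := Cfsg.Agent.S0288.result hqdef.symm (m + 1) (by omega) a b hab
    rw [Nat.add_sub_cancel] at h288
    rw [h288, hRdef, Nat.add_sub_cancel]
    ring
  haveI : Finite ↥(Cfsg.isometryGroup F (Cfsg.quadFormMinus m F a b)) := inferInstance
  haveI : Finite ↥(Cfsg.Omega F (Cfsg.quadFormMinus m F a b)) := inferInstance
  obtain ⟨e, he⟩ := IsPGroup.iff_card.mp hU'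
  -- `q ^ E * p` divides `|Ω|`
  have hE : f * (m * (m + 1)) ≤ e := by
    rw [he, hq, ← pow_mul] at hcard
    exact (Nat.pow_le_pow_iff_right hp.one_lt).mp hcard
  have h1 : q ^ (m * (m + 1)) * p
      ∣ Nat.card ↥(Cfsg.Omega F (Cfsg.quadFormMinus m F a b)) := by
    rw [← Subgroup.card_mul_index U', he]
    refine mul_dvd_mul ?_ hdvd
    rw [hq, ← pow_mul]
    exact pow_dvd_pow p hE
  have hΩO : Nat.card ↥(Cfsg.Omega F (Cfsg.quadFormMinus m F a b))
      ∣ Nat.card ↥(Cfsg.isometryGroup F (Cfsg.quadFormMinus m F a b)) :=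
    Subgroup.card_subgroup_dvd_card _
  have hqE : 0 < q ^ (m * (m + 1)) := Nat.pow_pos hq0
  by_cases hp2 : p = 2
  · have h2 : (2 : F) = 0 := by
      have := CharP.cast_eq_zero F p
      rw [hp2] at this
      exact_mod_cast this
    have h3 := sylb_card_omega_dvd_two h2 m a b
      (Cfsg.Agent.H49.disc_ne_zero_of_aniso a b hab) _ hO
    have h4 : q ^ (m * (m + 1)) * p ∣ q ^ (m * (m + 1)) * R := dvd_trans h1 h3
    exact hR (Nat.dvd_of_mul_dvd_mul_left hqE h4)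
  · have h4 : q ^ (m * (m + 1)) * p ∣ q ^ (m * (m + 1)) * (2 * R) := by
      have := dvd_trans h1 hΩO
      rw [hO] at this
      have e' : 2 * (q ^ (m * (m + 1)) * R) = q ^ (m * (m + 1)) * (2 * R) := by ring
      rwa [e'] at this
    have h5 : p ∣ 2 * R := Nat.dvd_of_mul_dvd_mul_left hqE h4
    rcases (Nat.Prime.dvd_mul hp).mp h5 with h6 | h6
    · exact hp2 ((Nat.prime_dvd_prime_iff_eq hp Nat.prime_two).mp h6)
    · exact hR h6

example [Fintype F] (p : ℕ) [Fact p.Prime] [CharP F p] (m : ℕ) (hm : 3 ≤ m) (a b : F) (hab : ∀ z₁ z₂ : F, z₁ ^ 2 + a * z₁ * z₂ + b * z₂ ^ 2 = 0 → z₁ = 0 ∧ z₂ = 0) (U' : Subgroup ↥(Cfsg.Omega F (Cfsg.quadFormMinus m F a b))) (hU' : IsPGroup p U') (hcard : Fintype.card F ^ (m * (m + 1)) ≤ Nat.card U') : ¬ p ∣ U'.index :=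
  ominus_sylow p m hm a b hab U' hU' hcard

end Cfsg.Agent.H3.StN
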