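import Mathlib
import Cfsg.Agent.H97.SuLDefs

/-!
# S2334 / S2335 piece COMM (helper3 for helper97): the commutation relation behind step (II).
-/

set_option autoImplicit false

namespace Cfsg.Agent.H3.SuL

open Module Cfsg.Agent.H17 Cfsg.Agent.H97.SuL

universe u

theorem stComm : StComm.{u} := by
  intro F _ _ q n hF e₁ e₂ f₁ β d τ g a z h11 h22 h12 hff h1f hf2 hd hτ hg ha hz
  have hq : q ≠ 0 := by
    rintro rfl
    have h1 : 1 < Fintype.card F := Fintype.one_lt_card
    rw [hF] at h1
    simp at h1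
  have h21 : Cfsg.hermForm n F q e₂ e₁ = 0 := by
    rw [← hermForm_conj n hF, h12, zero_pow hq]
  have hf1 : Cfsg.hermForm n F q f₁ e₁ = 1 := by
    rw [← hermForm_conj n hF, h1f, one_pow]
  have h2f : Cfsg.hermForm n F q e₂ f₁ = 0 := by
    rw [← hermForm_conj n hF, hf2, zero_pow hq]
  have hτ' : ∀ y, suAct τ y = y + (d * Cfsg.hermForm n F q y e₁) • e₁ := by
    intro y
    rw [hτ y, hermForm_zero_right n hF]
    simp
  have hg' : ∀ y, suAct g y = y + ((β * Cfsg.hermForm n F q y e₂) • f₁ +
      (-(β ^ q * Cfsg.hermForm n F q y f₁)) • e₂) := by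
    intro y
    rw [hg y, hermForm_smul_right]
    simp [smul_smul, mul_comm]
  have ha' : ∀ y, suAct a y = y + ((d * β * Cfsg.hermForm n F q y e₂) • e₁ +
      (-(d ^ q * β ^ q * Cfsg.hermForm n F q y e₁)) • e₂) := by
    intro y
    rw [ha y, hermForm_smul_right, mul_pow]
    simp [smul_smul, mul_comm]
  have hz' : ∀ y, suAct z y = y + (d * β ^ (q + 1) * Cfsg.hermForm n F q y e₂) • e₂ := by
    intro y
    rw [hz y, hermForm_zero_right n hF]
    simp
  apply su_ext
  intro v
  rw [suAct_mul, suAct_mul, suAct_mul, suAct_mul]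
  simp only [hz', ha', hτ', hg']
  simp only [hermForm_add_left, hermForm_smul_left, h11, h22, h12, h1f, h21, hf1, h2f,
    mul_zero, add_zero, mul_one]
  funext i
  simp only [Pi.add_apply, Pi.smul_apply, smul_eq_mul]
  have hd' : d ^ q = -d := hd
  rw [pow_succ]
  linear_combination (β ^ q * Cfsg.hermForm n F q v e₁ * e₂ i) * hd'

example : StComm.{u} := stComm

end Cfsg.Agent.H3.SuL
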