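import Mathlib
import Cfsg.Agent.H97.SuLDefs

/-!
# S2334 / S2335 piece EMB (helper3 for helper97): the block embedding `SU_m → SU_{m+2}`.
-/

set_option autoImplicit false

namespace Cfsg.Agent.H3.SuL

open Module Cfsg.Agent.H17 Cfsg.Agent.H97.SuL

open Matrix

universe u

/-- The form on appended vectors (any field, any `k`); local copy for this file. -/
theorem hermForm_append_gen'' {F : Type u} [Field F] (q m k : ℕ) (x x' : Fin m → F)
    (w w' : Fin k → F) :
    Cfsg.hermForm (m + k) F q (Fin.append x w) (Fin.append x' w') =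
      Cfsg.hermForm m F q x x' + Cfsg.hermForm k F q w w' := by
  unfold Cfsg.hermForm
  rw [Fin.sum_univ_add]
  simp only [Fin.append_left, Fin.append_right]

theorem exists_append_eq' {F : Type u} (m k : ℕ) (z : Fin (m + k) → F) :
    ∃ (x : Fin m → F) (w : Fin k → F), z = Fin.append x w :=
  ⟨fun i => z (Fin.castAdd k i), fun j => z (Fin.natAdd m j),
    (Fin.append_castAdd_natAdd (f := z)).symm⟩

/-- The block matrix `diag(A, 1_2)`. -/
noncomputable def blkMat {F : Type u} [Field F] (m : ℕ) (A : Matrix (Fin m) (Fin m) F) :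
    Matrix (Fin (m + 2)) (Fin (m + 2)) F :=
  Matrix.reindex finSumFinEquiv finSumFinEquiv
    (Matrix.fromBlocks A 0 0 (1 : Matrix (Fin 2) (Fin 2) F))

theorem append_eq_elim_comp {F : Type u} (m k : ℕ) (x : Fin m → F) (w : Fin k → F) :
    Fin.append x w = Sum.elim x w ∘ finSumFinEquiv.symm := by
  funext i
  refine Fin.addCases (fun i => ?_) (fun j => ?_) i
  · simp
  · simp

theorem blkMat_mulVec {F : Type u} [Field F] (m : ℕ) (A : Matrix (Fin m) (Fin m) F)
    (x : Fin m → F) (w : Fin 2 → F) :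
    blkMat m A *ᵥ Fin.append x w = Fin.append (A *ᵥ x) w := by
  rw [append_eq_elim_comp, append_eq_elim_comp]
  unfold blkMat
  rw [Matrix.reindex_apply, Matrix.submatrix_mulVec_equiv]
  have h1 : (Sum.elim x w ∘ ⇑finSumFinEquiv.symm) ∘ ⇑finSumFinEquiv.symm.symm = Sum.elim x w := by
    funext i
    simp
  rw [h1, Matrix.fromBlocks_mulVec]
  simp

theorem blkMat_det {F : Type u} [Field F] (m : ℕ) (A : Matrix (Fin m) (Fin m) F) :
    (blkMat m A).det = A.det := by
  unfold blkMat
  rw [Matrix.det_reindex_self, Matrix.det_fromBlocks_zero₂₁, Matrix.det_one, mul_one]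

theorem stEmb : StEmb.{u} := by
  intro F _ _ q hF m
  classical
  have hdet : ∀ g : ↥(Cfsg.SU m F q),
      (blkMat m ((g : Matrix.SpecialLinearGroup (Fin m) F) : Matrix (Fin m) (Fin m) F)).det
        = 1 := by
    intro g
    rw [blkMat_det]
    exact (g : Matrix.SpecialLinearGroup (Fin m) F).2
  let f0 : ↥(Cfsg.SU m F q) → Matrix.SpecialLinearGroup (Fin (m + 2)) F := fun g =>
    ⟨blkMat m ((g : Matrix.SpecialLinearGroup (Fin m) F) : Matrix (Fin m) (Fin m) F), hdet g⟩
  have hmem : ∀ g, f0 g ∈ Cfsg.SU (m + 2) F q := by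
    intro g u v
    obtain ⟨x, w, rfl⟩ := exists_append_eq' m 2 u
    obtain ⟨x', w', rfl⟩ := exists_append_eq' m 2 v
    have e1 : ∀ z : Fin (m + 2) → F, (Cfsg.slToMat (m + 2) F) (f0 g) *ᵥ z =
        blkMat m ((g : Matrix.SpecialLinearGroup (Fin m) F) : Matrix (Fin m) (Fin m) F) *ᵥ z :=
      fun z => rfl
    rw [e1, e1, blkMat_mulVec, blkMat_mulVec, hermForm_append_gen'', hermForm_append_gen'']
    congr 1
    exact g.2 x x'
  let f : ↥(Cfsg.SU m F q) → ↥(Cfsg.SU (m + 2) F q) := fun g => ⟨f0 g, hmem g⟩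
  have hact : ∀ (g : ↥(Cfsg.SU m F q)) (x : Fin m → F) (w : Fin 2 → F),
      suAct (f g) (Fin.append x w) = Fin.append (suAct g x) w := by
    intro g x w
    exact blkMat_mulVec m _ x w
  have hmul : ∀ a b : ↥(Cfsg.SU m F q), f (a * b) = f a * f b := by
    intro a b
    apply su_ext
    intro z
    obtain ⟨x, w, rfl⟩ := exists_append_eq' m 2 z
    rw [hact, suAct_mul, suAct_mul, hact, hact]
  exact ⟨MonoidHom.mk' f hmul, hact⟩

example : StEmb.{u} := stEmb

end Cfsg.Agent.H3.SuL
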