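import Mathlib
import Cfsg.Agent.H97.SuLDefs

/-!
# S2334 / S2335 piece EMBE (helper3 for helper97): the block embedding maps root elements to
root elements.
-/

set_option autoImplicit false

namespace Cfsg.Agent.H3.SuL

open Module Cfsg.Agent.H17 Cfsg.Agent.H97.SuL

universe u

/-- The form on appended vectors (any field, any `k`); local copy for this file. -/
theorem hermForm_append_gen' {F : Type u} [Field F] (q m k : ℕ) (x x' : Fin m → F)
    (w w' : Fin k → F) :
    Cfsg.hermForm (m + k) F q (Fin.append x w) (Fin.append x' w') =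
      Cfsg.hermForm m F q x x' + Cfsg.hermForm k F q w w' := by
  unfold Cfsg.hermForm
  rw [Fin.sum_univ_add]
  simp only [Fin.append_left, Fin.append_right]

theorem exists_append_eq {F : Type u} (m k : ℕ) (z : Fin (m + k) → F) :
    ∃ (x : Fin m → F) (w : Fin k → F), z = Fin.append x w :=
  ⟨fun i => z (Fin.castAdd k i), fun j => z (Fin.natAdd m j),
    (Fin.append_castAdd_natAdd (f := z)).symm⟩

theorem stEmbE : StEmbE.{u} := by
  intro F _ _ q hF m φ hφ e' d τ' hτ z
  obtain ⟨x, w, rfl⟩ := exists_append_eq m 2 z
  rw [hφ, hτ x]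
  unfold emb
  rw [hermForm_append_gen', hermForm_zero_right 2 hF, add_zero,
    hermForm_zero_right (m + 2) hF, hermForm_zero_right m hF]
  funext i
  refine Fin.addCases (fun i => ?_) (fun j => ?_) i
  · simp only [Fin.append_left, Pi.add_apply, Pi.smul_apply, Pi.zero_apply, smul_eq_mul]
  · simp only [Fin.append_right, Pi.add_apply, Pi.smul_apply, Pi.zero_apply, smul_eq_mul]
    ring

example : StEmbE.{u} := stEmbE

end Cfsg.Agent.H3.SuL
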