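import Mathlib
import Cfsg.Agent.H97.SuLDefs

/-!
# S2334 / S2335 piece FORMEMB (helper3 for helper97): the Hermitian form on `F^m ⊕ F^2`.
-/

set_option autoImplicit false

namespace Cfsg.Agent.H3.SuL

open Module Cfsg.Agent.H17 Cfsg.Agent.H97.SuL

universe u

/-- The form on appended vectors (any field, any `k`). -/
theorem hermForm_append_gen {F : Type u} [Field F] (q m k : ℕ) (x x' : Fin m → F)
    (w w' : Fin k → F) :
    Cfsg.hermForm (m + k) F q (Fin.append x w) (Fin.append x' w') =
      Cfsg.hermForm m F q x x' + Cfsg.hermForm k F q w w' := by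
  unfold Cfsg.hermForm
  rw [Fin.sum_univ_add]
  simp only [Fin.append_left, Fin.append_right]

theorem stFormEmb : StFormEmb.{u} := by
  intro F _ _ q _ m x x' w w'
  exact hermForm_append_gen q m 2 x x' w w'

example : StFormEmb.{u} := stFormEmb

end Cfsg.Agent.H3.SuL
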