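import Mathlib
import Cfsg.Agent.Lib.Lead.SylAlt.Defs

/-! helper3: piece CENT of the S2221 team project. -/

namespace Cfsg.Agent.H3.SylAlt

open Equiv Cfsg.Agent.Lib.Lead.SylAlt

variable {α : Type*} [Fintype α] [DecidableEq α]

/-- Two transpositions of a 2-group sharing a point are equal. -/
theorem cent_swap_eq_of_two (T : Subgroup (Perm α)) (hT : IsPGroup 2 T) {p q r : α}
    (hpq : p ≠ q) (hpr : p ≠ r) (h1 : swap p q ∈ T) (h2 : swap p r ∈ T) : q = r := by
  by_contra hqr
  have h3 := Equiv.Perm.isThreeCycle_swap_mul_swap_same hpq hpr hqr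
  have ho := h3.orderOf
  obtain ⟨k, hk⟩ := hT ⟨_, T.mul_mem h1 h2⟩
  have hk' : (swap p q * swap p r) ^ 2 ^ k = 1 := by
    have := congrArg Subtype.val hk
    simpa using this
  have hdvd := orderOf_dvd_of_pow_eq_one hk'
  rw [ho] at hdvd
  have := Nat.Prime.dvd_of_dvd_pow Nat.prime_three hdvd
  omega

/-- Block property of a transposition in a 2-group. -/
theorem cent_block_swap (T : Subgroup (Perm α)) (hT : IsPGroup 2 T) {x y : α} (hxy : x ≠ y)
    (ht : swap x y ∈ T) (g : Perm α) (hg : g ∈ T)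
    (h : g x = x ∨ g x = y ∨ g y = x ∨ g y = y) : g * swap x y = swap x y * g := by
  have hconj : swap (g x) (g y) ∈ T := by
    rw [Equiv.swap_apply_apply]
    exact T.mul_mem (T.mul_mem hg ht) (T.inv_mem hg)
  have hne : g x ≠ g y := fun h => hxy (g.injective h)
  have key : swap (g x) (g y) = swap x y := by
    rcases h with h | h | h | h
    · have : g y = y := by
        rw [h] at hconj hne
        exact cent_swap_eq_of_two T hT hne hxy hconj ht
      rw [h, this]
    · have : g y = x := by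
        rw [h] at hconj hne
        exact cent_swap_eq_of_two T hT hne hxy.symm hconj (by rw [swap_comm]; exact ht)
      rw [h, this, swap_comm]
    · have : g x = y := by
        rw [h] at hconj hne
        rw [swap_comm] at hconj
        exact cent_swap_eq_of_two T hT hne.symm hxy hconj ht
      rw [h, this, swap_comm]
    · have : g x = x := by
        rw [h] at hconj hne
        rw [swap_comm] at hconj
        exact cent_swap_eq_of_two T hT hne.symm hxy.symm hconj (by rw [swap_comm]; exact ht)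
      rw [h, this]
  rw [Equiv.swap_apply_apply] at key
  calc g * swap x y = g * swap x y * g⁻¹ * g := by group
    _ = swap x y * g := by rw [key]

omit [Fintype α] in
/-- A permutation commuting with a transposition fixes or swaps its two points. -/
theorem cent_comm_swap_cases {x y : α} (hxy : x ≠ y) (g : Perm α)
    (h : g * swap x y = swap x y * g) :
    (g x = x ∧ g y = y) ∨ (g x = y ∧ g y = x) := by
  have h1 : g y = swap x y (g x) := by
    have := congrArg (fun f : Perm α => f x) h
    simpa using this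
  by_cases hx : g x = x
  · left; refine ⟨hx, ?_⟩; rw [h1, hx, swap_apply_left]
  · by_cases hy : g x = y
    · right; refine ⟨hy, ?_⟩; rw [h1, hy, swap_apply_right]
    · exfalso
      rw [swap_apply_of_ne_of_ne hx hy] at h1
      exact hxy (g.injective h1).symm

/-- If `A` centralizes the transposition then `A` is central in `res T O`. -/
theorem cent_central (T : Subgroup (Perm α)) (O : Set α) (x y : α) (hxy : x ≠ y)
    (htrans : ∀ z ∈ O, ∃ w ∈ res T O, w x = z)
    (A B : Subgroup (Perm α)) (hA : A ≤ res T O)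
    (hcomm : ∀ a ∈ A, ∀ b ∈ B, a * b = b * a)
    (hdec : ∀ w ∈ res T O, ∃ a ∈ A, ∃ b ∈ B, w = a * b)
    (hAt : ∀ a ∈ A, a * swap x y = swap x y * a) :
    ∀ a ∈ A, ∀ w ∈ res T O, a * w = w * a := by
  have hnorm : ∀ a ∈ A, ∀ w ∈ res T O, w⁻¹ * a * w ∈ A := by
    intro a ha w hw
    obtain ⟨a', ha', b', hb', rfl⟩ := hdec w hw
    have h1 : a'⁻¹ * a * a' ∈ A := A.mul_mem (A.mul_mem (A.inv_mem ha') ha) ha'
    have h2 : (a' * b')⁻¹ * a * (a' * b') = b'⁻¹ * ((a'⁻¹ * a * a') * b') := by group
    rw [h2, hcomm _ h1 b' hb', inv_mul_cancel_left]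
    exact h1
  have hpair : ∀ a ∈ A, ∀ w ∈ res T O, a * swap (w x) (w y) = swap (w x) (w y) * a := by
    intro a ha w hw
    have h := hAt _ (hnorm a ha w hw)
    rw [Equiv.swap_apply_apply]
    calc a * (w * swap x y * w⁻¹) = w * (w⁻¹ * a * w * swap x y) * w⁻¹ := by group
      _ = w * (swap x y * (w⁻¹ * a * w)) * w⁻¹ := by rw [h]
      _ = w * swap x y * w⁻¹ * a := by group
  have hab : ∀ a ∈ A, ∀ a' ∈ A, a * a' = a' * a := by
    intro a ha a' ha'
    ext z
    by_cases hz : z ∈ O
    · obtain ⟨w, hw, rfl⟩ := htrans z hz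
      have hne : w x ≠ w y := fun h => hxy (w.injective h)
      rcases cent_comm_swap_cases hne a (hpair a ha w hw) with ⟨h1, h2⟩ | ⟨h1, h2⟩ <;>
      rcases cent_comm_swap_cases hne a' (hpair a' ha' w hw) with ⟨h3, h4⟩ | ⟨h3, h4⟩ <;>
      simp only [Perm.mul_apply, h1, h2, h3, h4]
    · have h1 := (hA ha).2 z hz
      have h2 := (hA ha').2 z hz
      simp only [Perm.mul_apply, h1, h2]
  intro a ha w hw
  obtain ⟨a', ha', b', hb', rfl⟩ := hdec w hw
  rw [← mul_assoc, hab a ha a' ha', mul_assoc, hcomm a ha b' hb', mul_assoc]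

/-- Piece CENT. -/
theorem cent (T : Subgroup (Perm α)) (hT : IsSyl2 T) (hs : HSplit T) (htr : HTr T) : HCent T := by
  intro x hbig A B hA hB hcomm hsup
  obtain ⟨g, hg, hgx, -⟩ := hbig x
  obtain ⟨y, hyx, hty⟩ := htr x ⟨g, hg, hgx⟩
  have hxy : x ≠ y := fun h => hyx h.symm
  have hxO : x ∈ orb T x := mem_orb_self T x
  have hyO : y ∈ orb T x := ⟨swap x y, hty, swap_apply_left x y⟩
  have htW : swap x y ∈ res T (orb T x) := by
    refine ⟨hty, fun z hz => ?_⟩
    apply swap_apply_of_ne_of_ne
    · rintro rfl; exact hz hxO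
    · rintro rfl; exact hz hyO
  have htrans : ∀ z ∈ orb T x, ∃ w ∈ res T (orb T x), w x = z := by
    rintro z ⟨g, hg, rfl⟩
    obtain ⟨a, ha, b, hb, rfl⟩ := hs (orb T x) (orb_inv T x) g hg
    refine ⟨a, ha, ?_⟩
    have : b x = x := hb.2 x (fun h => h hxO)
    rw [Perm.mul_apply, this]
  have hdec : ∀ w ∈ res T (orb T x), ∃ a ∈ A, ∃ b ∈ B, w = a * b := by
    let P : Subgroup (Perm α) :=
      { carrier := {w | ∃ a ∈ A, ∃ b ∈ B, w = a * b}
        mul_mem' := by
          rintro _ _ ⟨a, ha, b, hb, rfl⟩ ⟨a', ha', b', hb', rfl⟩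
          refine ⟨a * a', A.mul_mem ha ha', b * b', B.mul_mem hb hb', ?_⟩
          rw [mul_assoc, ← mul_assoc b a' b', ← hcomm a' ha' b hb, mul_assoc, mul_assoc]
        one_mem' := ⟨1, A.one_mem, 1, B.one_mem, (mul_one 1).symm⟩
        inv_mem' := by
          rintro _ ⟨a, ha, b, hb, rfl⟩
          refine ⟨a⁻¹, A.inv_mem ha, b⁻¹, B.inv_mem hb, ?_⟩
          rw [mul_inv_rev, hcomm _ (A.inv_mem ha) _ (B.inv_mem hb)] }
    have hP : A ⊔ B ≤ P :=
      sup_le (fun a ha => ⟨a, ha, 1, B.one_mem, (mul_one a).symm⟩)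
        (fun b hb => ⟨1, A.one_mem, b, hb, (one_mul b).symm⟩)
    intro w hw
    rw [← hsup] at hw
    exact hP hw
  have hcomm' : ∀ b ∈ B, ∀ a ∈ A, b * a = a * b := fun b hb a ha => (hcomm a ha b hb).symm
  have hdec' : ∀ w ∈ res T (orb T x), ∃ b ∈ B, ∃ a ∈ A, w = b * a := by
    intro w hw
    obtain ⟨a, ha, b, hb, rfl⟩ := hdec w hw
    exact ⟨b, hb, a, ha, hcomm a ha b hb⟩
  have hdich : (∀ a ∈ A, a * swap x y = swap x y * a) ∨
      (∀ b ∈ B, b * swap x y = swap x y * b) := by
    by_contra hcon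
    rw [not_or] at hcon
    obtain ⟨hcA, hcB⟩ := hcon
    push Not at hcA hcB
    obtain ⟨a, ha, hat⟩ := hcA
    obtain ⟨b, hb, hbt⟩ := hcB
    have haT : a ∈ T := res_le _ _ (hA ha)
    have hbT : b ∈ T := res_le _ _ (hB hb)
    have hax : a x ≠ x := fun h => hat (cent_block_swap T hT.1 hxy hty a haT (Or.inl h))
    have hax' : a x ≠ y := fun h =>
      hat (cent_block_swap T hT.1 hxy hty a haT (Or.inr (Or.inl h)))
    have hay : a y ≠ x := fun h =>
      hat (cent_block_swap T hT.1 hxy hty a haT (Or.inr (Or.inr (Or.inl h))))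
    have hay' : a y ≠ y := fun h =>
      hat (cent_block_swap T hT.1 hxy hty a haT (Or.inr (Or.inr (Or.inr h))))
    have hbx : b x ≠ x := fun h => hbt (cent_block_swap T hT.1 hxy hty b hbT (Or.inl h))
    have hbx' : b x ≠ y := fun h =>
      hbt (cent_block_swap T hT.1 hxy hty b hbT (Or.inr (Or.inl h)))
    obtain ⟨a₀, ha₀, b₀, hb₀, ht0⟩ := hdec _ htW
    have hda : swap x y * swap (a x) (a y) ∈ A := by
      have h1 : swap x y * swap (a x) (a y) = a₀ * a * a₀⁻¹ * a⁻¹ := by
        rw [Equiv.swap_apply_apply]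
        have h2 : swap x y * a * (swap x y)⁻¹ = a₀ * a * a₀⁻¹ := by
          rw [ht0, mul_inv_rev, mul_assoc a₀ b₀ a, ← hcomm a ha b₀ hb₀]; group
        rw [← h2, swap_inv]; group
      rw [h1]
      exact A.mul_mem (A.mul_mem (A.mul_mem ha₀ ha) (A.inv_mem ha₀)) (A.inv_mem ha)
    have hbxa : b x = a x ∨ b x = a y := by
      by_contra hcon
      rw [not_or] at hcon
      have h1 := hcomm _ hda b hb
      have h2 := congrArg (fun f : Perm α => f x) h1
      simp only [Perm.mul_apply] at h2
      rw [swap_apply_of_ne_of_ne hcon.1 hcon.2, swap_apply_of_ne_of_ne hbx hbx',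
        swap_apply_of_ne_of_ne (Ne.symm hax) (Ne.symm hay), swap_apply_left] at h2
      exact hxy (b.injective h2)
    have ha₀t : a₀ * swap x y = swap x y * a₀ := by
      rw [ht0, mul_assoc a₀ b₀ a₀, ← hcomm a₀ ha₀ b₀ hb₀]
    have hb₀t : b₀ * swap x y = swap x y * b₀ := by
      rw [ht0, ← mul_assoc, ← hcomm a₀ ha₀ b₀ hb₀]
    have htx : a₀ (b₀ x) = y := by
      have := congrArg (fun f : Perm α => f x) ht0
      simp only [Perm.mul_apply, swap_apply_left] at this
      exact this.symm
    have hty' : a₀ (b₀ y) = x := by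
      have := congrArg (fun f : Perm α => f y) ht0
      simp only [Perm.mul_apply, swap_apply_right] at this
      exact this.symm
    have hAB : ∀ a' ∈ A, ∀ b' ∈ B, ∀ z, a' (b' z) = b' (a' z) := by
      intro a' ha' b' hb' z
      have := congrArg (fun f : Perm α => f z) (hcomm a' ha' b' hb')
      simpa only [Perm.mul_apply] using this
    have htz : ∀ z, z ≠ x → z ≠ y → a₀ (b₀ z) = z := by
      intro z hzx hzy
      have := congrArg (fun f : Perm α => f z) ht0
      simp only [Perm.mul_apply, swap_apply_of_ne_of_ne hzx hzy] at this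
      exact this.symm
    rcases cent_comm_swap_cases hxy b₀ hb₀t with ⟨h1, h2⟩ | ⟨h1, h2⟩
    · -- b₀ fixes x, y ; a₀ swaps them
      rw [h1] at htx
      rw [h2] at hty'
      have e1 : b₀ (a x) = a x := by rw [← hAB a ha b₀ hb₀, h1]
      have e1' : b₀ (a y) = a y := by rw [← hAB a ha b₀ hb₀, h2]
      have e2 : a₀ (a x) = a x := by
        have := htz (a x) hax hax'
        rwa [e1] at this
      have e2' : a₀ (a y) = a y := by
        have := htz (a y) hay hay'
        rwa [e1'] at this
      have e3 : a₀ (b x) = b y := by rw [hAB a₀ ha₀ b hb, htx]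
      rcases hbxa with h | h
      · rw [h, e2] at e3
        exact hxy (b.injective (h.trans e3))
      · rw [h, e2'] at e3
        exact hxy (b.injective (h.trans e3))
    · -- b₀ swaps x, y ; a₀ fixes them
      rw [h1] at htx
      rw [h2] at hty'
      have f1 : a₀ (b x) = b x := by rw [hAB a₀ ha₀ b hb, hty']
      have f2 : b₀ (b x) = b x := by
        have := htz (b x) hbx hbx'
        exact a₀.injective (this.trans f1.symm)
      have f3 : b₀ (a x) = a y := by rw [← hAB a ha b₀ hb₀, h1]
      have f3' : b₀ (a y) = a x := by rw [← hAB a ha b₀ hb₀, h2]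
      rcases hbxa with h | h
      · rw [h, f3] at f2
        exact hxy (a.injective f2.symm)
      · rw [h, f3'] at f2
        exact hxy (a.injective f2)
  rcases hdich with h | h
  · left; exact cent_central T (orb T x) x y hxy htrans A B hA hcomm hdec h
  · right; exact cent_central T (orb T x) x y hxy htrans B A hB hcomm' hdec' h

example (T : Subgroup (Perm α)) (hT : IsSyl2 T) (hs : HSplit T) (htr : HTr T) : HCent T :=
  cent T hT hs htr

end Cfsg.Agent.H3.SylAlt
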