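import Mathlib
import Cfsg.Agent.H4.TnDefs

/-!
# S3805 team project TN (helper4): piece TN-NORMAL (helper3)

The normal form `Cfg G T a b u v` from a Klein four complement `{1, x, y, xy}` of `T` in
`N_G(T)` acting faithfully on `T` (elementary abelian of order 9).
-/

set_option autoImplicit false

namespace Cfsg.Agent.H3.Tn

open Subgroup Cfsg.Agent.H4.Tn

universe u

section
variable {G : Type u} [Group G]

theorem tnPow3Cases {c : G} (hc : c ^ 3 = 1) (i : ℕ) :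
    c ^ i = 1 ∨ c ^ i = c ∨ c ^ i = c⁻¹ := by
  rw [pow_eq_pow_mod i hc]
  have h3 : i % 3 < 3 := Nat.mod_lt _ (by norm_num)
  generalize i % 3 = r at h3
  interval_cases r
  · left; exact pow_zero c
  · right; left; exact pow_one c
  · right; right
    apply eq_inv_of_mul_eq_one_left
    rw [← pow_succ]; exact hc

theorem tnSqCube {c : G} (h2 : c * c = 1) (h3 : c ^ 3 = 1) : c = 1 := by
  have h : c ^ 3 = c * c * c := by rw [pow_succ, pow_two]
  rw [h, h2, one_mul] at h3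
  exact h3

/-- `a` fixed and `b` inverted by `u`, both non-trivial in `T`: `a, b` is a basis of `T`. -/
theorem tnBasis [Finite G] {T : Subgroup G} {a b u : G} (hcard : Nat.card T = 9)
    (hT3 : ∀ t ∈ T, t ^ 3 = 1)
    (haT : a ∈ T) (hbT : b ∈ T) (ha1 : a ≠ 1) (hb1 : b ≠ 1)
    (hua : u * a = a * u) (hub : u * b = b⁻¹ * u) :
    (∀ t ∈ T, ∃ i j : ℕ, t = a ^ i * b ^ j) ∧
    (∀ i j : ℕ, a ^ i * b ^ j = 1 → 3 ∣ i ∧ 3 ∣ j) := by
  have a3 : a ^ 3 = 1 := hT3 a haT
  have b3 : b ^ 3 = 1 := hT3 b hbT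
  have hoa : orderOf a = 3 := orderOf_eq_prime a3 ha1
  have hob : orderOf b = 3 := orderOf_eq_prime b3 hb1
  have zkey : ∀ m n : ℤ, a ^ m = b ^ n → a ^ m = 1 := by
    intro m n hmn
    have h1 : u * a ^ m = a ^ m * u := ((show Commute u a from hua).zpow_right m).eq
    have h2 : u * b ^ n = (b ^ n)⁻¹ * u := by
      have h := ((show SemiconjBy u b b⁻¹ from hub).zpow_right n).eq
      rwa [inv_zpow] at h
    rw [← hmn] at h2
    have h3 : a ^ m = (a ^ m)⁻¹ := mul_right_cancel (h1.symm.trans h2)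
    have h4 : a ^ m * a ^ m = 1 := mul_eq_one_iff_eq_inv.mpr h3
    exact tnSqCube h4 (hT3 _ (T.zpow_mem haT m))
  have ha_dvd : ∀ m : ℤ, a ^ m = 1 → (3 : ℤ) ∣ m := by
    intro m hm
    have h := orderOf_dvd_iff_zpow_eq_one.mpr hm
    rw [hoa] at h
    exact_mod_cast h
  have hb_dvd : ∀ m : ℤ, b ^ m = 1 → (3 : ℤ) ∣ m := by
    intro m hm
    have h := orderOf_dvd_iff_zpow_eq_one.mpr hm
    rw [hob] at h
    exact_mod_cast h
  have hindep : ∀ i j : ℕ, a ^ i * b ^ j = 1 → 3 ∣ i ∧ 3 ∣ j := by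
    intro i j hij
    have h1 : a ^ (i : ℤ) = b ^ (-(j : ℤ)) := by
      rw [zpow_neg, zpow_natCast, zpow_natCast]
      exact mul_eq_one_iff_eq_inv.mp hij
    have h2 := zkey _ _ h1
    have h3 : b ^ (-(j : ℤ)) = 1 := h1.symm.trans h2
    have h4 := ha_dvd _ h2
    have h5 := hb_dvd _ h3
    constructor <;> omega
  refine ⟨?_, hindep⟩
  have hmem : ∀ p : Fin 3 × Fin 3, a ^ (p.1 : ℕ) * b ^ (p.2 : ℕ) ∈ T :=
    fun p => T.mul_mem (T.pow_mem haT _) (T.pow_mem hbT _)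
  obtain ⟨f, hf⟩ : ∃ f : Fin 3 × Fin 3 → T, ∀ p, (f p : G) = a ^ (p.1 : ℕ) * b ^ (p.2 : ℕ) :=
    ⟨fun p => ⟨_, hmem p⟩, fun p => rfl⟩
  have hinj : Function.Injective f := by
    rintro ⟨i, j⟩ ⟨i', j'⟩ hp
    have hp' : a ^ (i : ℕ) * b ^ (j : ℕ) = a ^ (i' : ℕ) * b ^ (j' : ℕ) := by
      have h := congrArg Subtype.val hp
      rwa [hf, hf] at h
    have h1 : (a ^ (i' : ℕ))⁻¹ * a ^ (i : ℕ) = b ^ (j' : ℕ) * (b ^ (j : ℕ))⁻¹ := by
      rw [inv_mul_eq_iff_eq_mul, ← mul_assoc, ← hp', mul_inv_cancel_right]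
    have h2 : a ^ (-(i' : ℤ) + (i : ℤ)) = b ^ ((j' : ℤ) + -(j : ℤ)) := by
      rw [zpow_add, zpow_add, zpow_neg, zpow_neg, zpow_natCast, zpow_natCast, zpow_natCast,
        zpow_natCast]
      exact h1
    have h3 := zkey _ _ h2
    have h4 : b ^ ((j' : ℤ) + -(j : ℤ)) = 1 := h2.symm.trans h3
    have h5 := ha_dvd _ h3
    have h6 := hb_dvd _ h4
    have hi := i.2
    have hi' := i'.2
    have hj := j.2
    have hj' := j'.2
    refine Prod.ext (Fin.ext ?_) (Fin.ext ?_)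
    · show (i : ℕ) = i'
      omega
    · show (j : ℕ) = j'
      omega
  have hbij : Function.Bijective f :=
    hinj.bijective_of_nat_card_le (by rw [hcard, Nat.card_prod, Nat.card_fin])
  intro t ht
  obtain ⟨⟨i, j⟩, hij⟩ := hbij.2 ⟨t, ht⟩
  refine ⟨i, j, ?_⟩
  have h := congrArg Subtype.val hij
  rw [hf] at h
  exact h.symm

/-- The configuration from the normal form data. -/
theorem tnCfgOf [Finite G] {T : Subgroup G} {a b u v : G}
    (hsyl : ∃ S : Sylow 3 G, (S : Subgroup G) = T) (hcard : Nat.card T = 9)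
    (hTc : ∀ s ∈ T, ∀ t ∈ T, s * t = t * s) (hT3 : ∀ t ∈ T, t ^ 3 = 1)
    (hloc : ∀ t ∈ T, t ≠ 1 → centralizer ({t} : Set G) ≤ normalizer (T : Set G))
    (haT : a ∈ T) (hbT : b ∈ T) (ha1 : a ≠ 1) (hb1 : b ≠ 1)
    (hu2 : u * u = 1) (hv2 : v * v = 1) (huv : u * v = v * u)
    (hua : u * a = a * u) (hub : u * b = b⁻¹ * u) (hva : v * a = a⁻¹ * v)
    (hvb : v * b = b * v)
    (huN : u ∈ normalizer (T : Set G)) (hvN : v ∈ normalizer (T : Set G))
    (hN : ∀ g ∈ normalizer (T : Set G),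
      ∃ t ∈ T, g = t ∨ g = t * u ∨ g = t * v ∨ g = t * (u * v)) :
    Cfg G T a b u v := by
  obtain ⟨hTelts, hindep⟩ := tnBasis hcard hT3 haT hbT ha1 hb1 hua hub
  have hnot : ∀ g c : G, c ∈ T → c ≠ 1 → g * c = c⁻¹ * g → g ∉ T := by
    intro g c hc hc1 hg hgT
    have h1 : g * c = c * g := hTc g hgT c hc
    have h2 : c = c⁻¹ := mul_right_cancel (h1.symm.trans hg)
    exact hc1 (tnSqCube (mul_eq_one_iff_eq_inv.mpr h2) (hT3 c hc))
  have huT : u ∉ T := hnot u b hbT hb1 hub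
  have hvT : v ∉ T := hnot v a haT ha1 hva
  have huvT : u * v ∉ T := by
    apply hnot (u * v) a haT ha1
    rw [mul_assoc, hva, ← mul_assoc, ← mul_assoc, ((show Commute u a from hua).inv_right).eq]
  have hui : u⁻¹ = u := (eq_inv_of_mul_eq_one_left hu2).symm
  have hvi : v⁻¹ = v := (eq_inv_of_mul_eq_one_left hv2).symm
  have hvu : v * u = u * v := huv.symm
  have e1 : ∀ z, u * (u * z) = z := fun z => by rw [← mul_assoc, hu2, one_mul]
  have e2 : ∀ z, v * (v * z) = z := fun z => by rw [← mul_assoc, hv2, one_mul]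
  have e3 : ∀ z, v * (u * z) = u * (v * z) := fun z => by
    rw [← mul_assoc, hvu, mul_assoc]
  obtain ⟨κ, hκ⟩ : ∃ κ : Fin 4 → G, κ = ![1, u, v, u * v] := ⟨_, rfl⟩
  have hκN : ∀ i, κ i ∈ normalizer (T : Set G) := by
    intro i
    rw [hκ]
    fin_cases i
    · exact one_mem _
    · exact huN
    · exact hvN
    · exact mul_mem huN hvN
  have hκinj : ∀ i j, κ i * (κ j)⁻¹ ∈ T → i = j := by
    intro i j h
    rw [hκ] at h
    fin_cases i <;> fin_cases j <;>
      first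
      | rfl
      | (exfalso
         simp [hui, hvi, hu2, hv2, hvu, e1, e2, e3, mul_assoc] at h
         first
         | exact huT h
         | exact hvT h
         | exact huvT h)
  have hTN : T ≤ normalizer (T : Set G) := le_normalizer
  obtain ⟨F, hF⟩ : ∃ F : T × Fin 4 → normalizer (T : Set G),
      ∀ p, (F p : G) = (p.1 : G) * κ p.2 :=
    ⟨fun p => ⟨(p.1 : G) * κ p.2, mul_mem (hTN p.1.2) (hκN p.2)⟩, fun p => rfl⟩
  have hFinj : Function.Injective F := by
    rintro ⟨t, i⟩ ⟨t', j⟩ hp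
    have hp' : (t : G) * κ i = (t' : G) * κ j := by
      have h := congrArg Subtype.val hp
      rwa [hF, hF] at h
    have hij : i = j := by
      apply hκinj
      have h : κ i * (κ j)⁻¹ = (t : G)⁻¹ * t' := by
        rw [mul_inv_eq_iff_eq_mul, mul_assoc, ← hp', inv_mul_cancel_left]
      rw [h]
      exact mul_mem (inv_mem t.2) t'.2
    subst hij
    have h : (t : G) = t' := mul_right_cancel hp'
    exact Prod.ext (Subtype.ext h) rfl
  have hFsurj : Function.Surjective F := by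
    rintro ⟨g, hg⟩
    obtain ⟨t, ht, h | h | h | h⟩ := hN g hg
    · subst h
      refine ⟨(⟨g, ht⟩, 0), Subtype.ext ?_⟩
      rw [hF, hκ]
      exact mul_one g
    · subst h
      refine ⟨(⟨t, ht⟩, 1), Subtype.ext ?_⟩
      rw [hF, hκ]
      rfl
    · subst h
      refine ⟨(⟨t, ht⟩, 2), Subtype.ext ?_⟩
      rw [hF, hκ]
      rfl
    · subst h
      refine ⟨(⟨t, ht⟩, 3), Subtype.ext ?_⟩
      rw [hF, hκ]
      rfl
  have hcardN : Nat.card (normalizer (T : Set G)) = 36 := by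
    rw [← Nat.card_congr (Equiv.ofBijective F ⟨hFinj, hFsurj⟩), Nat.card_prod, hcard,
      Nat.card_fin]
  exact
    { syl := hsyl
      cardT := hcard
      comm := hTc
      aT := haT
      bT := hbT
      a3 := hT3 a haT
      b3 := hT3 b hbT
      Telts := hTelts
      indep := hindep
      u2 := hu2
      v2 := hv2
      uv := huv
      ua := hua
      ub := hub
      va := hva
      vb := hvb
      uN := huN
      vN := hvN
      Nelts := hN
      cardN := hcardN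
      loc := hloc }

/-- The core: `h` neither centralizes nor inverts `T`. -/
theorem tnNormalCore [Finite G] {T : Subgroup G} {h k : G}
    (hsyl : ∃ S : Sylow 3 G, (S : Subgroup G) = T) (hcard : Nat.card T = 9)
    (hTc : ∀ s ∈ T, ∀ t ∈ T, s * t = t * s) (hT3 : ∀ t ∈ T, t ^ 3 = 1)
    (hCT : ∀ g : G, (∀ t ∈ T, t * g = g * t) → g ∈ T)
    (hloc : ∀ t ∈ T, t ≠ 1 → centralizer ({t} : Set G) ≤ normalizer (T : Set G))
    (hhN : h ∈ normalizer (T : Set G)) (hkN : k ∈ normalizer (T : Set G))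
    (hh2 : h * h = 1) (hk2 : k * k = 1) (hhk : h * k = k * h)
    (hhT : h ∉ T) (hkT : k ∉ T) (hhkT : h * k ∉ T)
    (hN : ∀ g ∈ normalizer (T : Set G),
      ∃ t ∈ T, g = t ∨ g = t * h ∨ g = t * k ∨ g = t * (h * k))
    (hnotinv : ∃ t ∈ T, h * t * h⁻¹ ≠ t⁻¹) :
    ∃ a b u v : G, Cfg G T a b u v := by
  have hhi : h⁻¹ = h := (eq_inv_of_mul_eq_one_left hh2).symm
  have hki : k⁻¹ = k := (eq_inv_of_mul_eq_one_left hk2).symm
  have hconjh : ∀ t ∈ T, h * t * h⁻¹ ∈ T := fun t ht => (mem_normalizer_iff.mp hhN t).mp ht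
  have hconjk : ∀ t ∈ T, k * t * k⁻¹ ∈ T := fun t ht => (mem_normalizer_iff.mp hkN t).mp ht
  obtain ⟨t0, ht0, hne0⟩ := hnotinv
  obtain ⟨t1, ht1, hne1⟩ : ∃ t ∈ T, t * h ≠ h * t := by
    by_contra hcon
    push Not at hcon
    exact hhT (hCT h hcon)
  -- the fixed vector `a`
  obtain ⟨c, hc⟩ : ∃ c, c = h * t0 * h⁻¹ := ⟨_, rfl⟩
  have hcT : c ∈ T := hc ▸ hconjh t0 ht0
  have ec1 : h * t0 = c * h := by rw [hc, inv_mul_cancel_right]
  have ec2 : h * c = t0 * h := by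
    rw [hc, ← mul_assoc, ← mul_assoc, hh2, one_mul, hhi]
  obtain ⟨a, ha⟩ : ∃ a, a = t0 * c := ⟨_, rfl⟩
  have haT : a ∈ T := ha ▸ T.mul_mem ht0 hcT
  have ha1 : a ≠ 1 := by
    intro h1
    rw [ha] at h1
    apply hne0
    rw [← hc]
    exact (mul_eq_one_iff_inv_eq.mp h1).symm
  have hua : h * a = a * h := by
    rw [ha]
    calc h * (t0 * c) = (h * t0) * c := (mul_assoc _ _ _).symm
      _ = c * (h * c) := by rw [ec1, mul_assoc]
      _ = (c * t0) * h := by rw [ec2, mul_assoc]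
      _ = (t0 * c) * h := by rw [hTc t0 ht0 c hcT]
  -- the inverted vector `b`
  obtain ⟨d, hd⟩ : ∃ d, d = h * t1 * h⁻¹ := ⟨_, rfl⟩
  have hdT : d ∈ T := hd ▸ hconjh t1 ht1
  have ed1 : h * t1 = d * h := by rw [hd, inv_mul_cancel_right]
  have ed2 : SemiconjBy h d t1 := by
    show h * d = t1 * h
    rw [hd, ← mul_assoc, ← mul_assoc, hh2, one_mul, hhi]
  obtain ⟨b, hb⟩ : ∃ b, b = t1 * d⁻¹ := ⟨_, rfl⟩
  have hbT : b ∈ T := hb ▸ T.mul_mem ht1 (T.inv_mem hdT)
  have hb1 : b ≠ 1 := by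
    intro h1
    rw [hb] at h1
    apply hne1
    have h2 : t1 = d := mul_inv_eq_one.mp h1
    rw [ed1, ← h2]
  have hub : h * b = b⁻¹ * h := by
    have ed3 : h * d⁻¹ = t1⁻¹ * h := ed2.inv_right.eq
    rw [hb, mul_inv_rev, inv_inv]
    calc h * (t1 * d⁻¹) = (h * t1) * d⁻¹ := (mul_assoc _ _ _).symm
      _ = d * (h * d⁻¹) := by rw [ed1, mul_assoc]
      _ = d * t1⁻¹ * h := by rw [ed3, mul_assoc]
  have a3 : a ^ 3 = 1 := hT3 a haT
  have b3 : b ^ 3 = 1 := hT3 b hbT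
  obtain ⟨hTelts, hindep⟩ := tnBasis hcard hT3 haT hbT ha1 hb1 hua hub
  have hcA : Commute h a := hua
  have hsB : SemiconjBy h b b⁻¹ := hub
  -- classification of fixed and inverted vectors
  have hfix : ∀ t ∈ T, h * t = t * h → t = 1 ∨ t = a ∨ t = a⁻¹ := by
    intro t ht hcomm
    obtain ⟨i, j, rfl⟩ := hTelts t ht
    have h1 : h * (a ^ i * b ^ j) = a ^ i * (b ^ j)⁻¹ * h := by
      have hA := (hcA.pow_right i).eq
      have hB := (hsB.pow_right j).eq
      rw [inv_pow] at hB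
      rw [← mul_assoc, hA, mul_assoc, hB, mul_assoc]
    have h2 : (b ^ j)⁻¹ = b ^ j :=
      mul_left_cancel (mul_right_cancel (h1.symm.trans hcomm))
    have h3 : b ^ j = 1 := by
      apply tnSqCube (mul_eq_one_iff_eq_inv.mpr h2.symm)
      rw [← pow_mul, mul_comm, pow_mul, b3, one_pow]
    rw [h3, mul_one]
    exact tnPow3Cases a3 i
  have hinvd : ∀ t ∈ T, h * t = t⁻¹ * h → t = 1 ∨ t = b ∨ t = b⁻¹ := by
    intro t ht hcomm
    obtain ⟨i, j, rfl⟩ := hTelts t ht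
    have h1 : h * (a ^ i * b ^ j) = a ^ i * (b ^ j)⁻¹ * h := by
      have hA := (hcA.pow_right i).eq
      have hB := (hsB.pow_right j).eq
      rw [inv_pow] at hB
      rw [← mul_assoc, hA, mul_assoc, hB, mul_assoc]
    have h2 : a ^ i * (b ^ j)⁻¹ = (a ^ i * b ^ j)⁻¹ := mul_right_cancel (h1.symm.trans hcomm)
    rw [mul_inv_rev, hTc _ (T.inv_mem (T.pow_mem hbT j)) _ (T.inv_mem (T.pow_mem haT i))] at h2
    have h3 : a ^ i = (a ^ i)⁻¹ := mul_right_cancel h2
    have h4 : a ^ i = 1 := by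
      apply tnSqCube (mul_eq_one_iff_eq_inv.mpr h3)
      rw [← pow_mul, mul_comm, pow_mul, a3, one_pow]
    rw [h4, one_mul]
    exact tnPow3Cases b3 j
  -- the action of `k`
  have hcK : Commute h k := hhk
  have hkaT : k * a * k⁻¹ ∈ T := hconjk a haT
  have hkbT : k * b * k⁻¹ ∈ T := hconjk b hbT
  have hka_fix : h * (k * a * k⁻¹) = (k * a * k⁻¹) * h :=
    ((hcK.mul_right hcA).mul_right hcK.inv_right).eq
  have hkb_inv : h * (k * b * k⁻¹) = (k * b * k⁻¹)⁻¹ * h := by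
    have h1 : SemiconjBy h (k * b * k⁻¹) (k * b⁻¹ * k⁻¹) :=
      ((show SemiconjBy h k k from hhk).mul_right hsB).mul_right
        (show SemiconjBy h k⁻¹ k⁻¹ from hcK.inv_right)
    rw [conj_inv]
    exact h1.eq
  have hka1 : k * a * k⁻¹ ≠ 1 := fun h1 => ha1 (conj_eq_one_iff.mp h1)
  have hkb1 : k * b * k⁻¹ ≠ 1 := fun h1 => hb1 (conj_eq_one_iff.mp h1)
  have hsBi : SemiconjBy h b⁻¹ b := by
    have h1 := hsB.inv_right
    rwa [inv_inv] at h1
  have hcAi : SemiconjBy h a⁻¹ a⁻¹ := hcA.inv_right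
  have hall : ∀ g : G, g * a = a * g → g * b = b * g → ∀ t ∈ T, t * g = g * t := by
    intro g hga hgb t ht
    obtain ⟨i, j, rfl⟩ := hTelts t ht
    exact (((show Commute g a from hga).pow_right i).mul_right
      ((show Commute g b from hgb).pow_right j)).eq.symm
  rcases hfix _ hkaT hka_fix with hA | hA | hA
  · exact absurd hA hka1
  · -- `k` centralizes `a`
    have hka : k * a = a * k := mul_inv_eq_iff_eq_mul.mp hA
    rcases hinvd _ hkbT hkb_inv with hB | hB | hB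
    · exact absurd hB hkb1
    · have hkb : k * b = b * k := mul_inv_eq_iff_eq_mul.mp hB
      exact absurd (hCT k (hall k hka hkb)) hkT
    · have hkb : SemiconjBy k b b⁻¹ := mul_inv_eq_iff_eq_mul.mp hB
      have h1 : (h * k) * a = a * (h * k) := (hcA.mul_left (show Commute k a from hka)).eq
      have h2 : (h * k) * b = b * (h * k) := (hsBi.mul_left hkb).eq
      exact absurd (hCT (h * k) (hall (h * k) h1 h2)) hhkT
  · -- `k` inverts `a`
    have hka : SemiconjBy k a a⁻¹ := mul_inv_eq_iff_eq_mul.mp hA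
    rcases hinvd _ hkbT hkb_inv with hB | hB | hB
    · exact absurd hB hkb1
    · have hkb : k * b = b * k := mul_inv_eq_iff_eq_mul.mp hB
      exact ⟨a, b, h, k, tnCfgOf hsyl hcard hTc hT3 hloc haT hbT ha1 hb1 hh2 hk2 hhk hua hub
        hka.eq hkb hhN hkN hN⟩
    · have hkb : SemiconjBy k b b⁻¹ := mul_inv_eq_iff_eq_mul.mp hB
      have hv2 : (h * k) * (h * k) = 1 := by
        calc h * k * (h * k) = h * (k * h) * k := by group
          _ = h * (h * k) * k := by rw [hhk]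
          _ = (h * h) * (k * k) := by group
          _ = 1 := by rw [hh2, hk2, one_mul]
      have huv : h * (h * k) = (h * k) * h := by
        rw [mul_assoc h k h, ← hhk]
      have hva : (h * k) * a = a⁻¹ * (h * k) := (hcAi.mul_left hka).eq
      have hvb : (h * k) * b = b * (h * k) := (hsBi.mul_left hkb).eq
      have hhhk : h * (h * k) = k := by rw [← mul_assoc, hh2, one_mul]
      refine ⟨a, b, h, h * k, tnCfgOf hsyl hcard hTc hT3 hloc haT hbT ha1 hb1 hh2 hv2 huv hua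
        hub hva hvb hhN (mul_mem hhN hkN) ?_⟩
      intro g hg
      obtain ⟨t, ht, hg'⟩ := hN g hg
      refine ⟨t, ht, ?_⟩
      rw [hhhk]
      rcases hg' with hg' | hg' | hg' | hg'
      · exact Or.inl hg'
      · exact Or.inr (Or.inl hg')
      · exact Or.inr (Or.inr (Or.inr hg'))
      · exact Or.inr (Or.inr (Or.inl hg'))

end

/-- **TN-NORMAL**. -/
theorem normal : StNormal.{u} := by
  intro G _ _ T x y hEA hcard hC hloc hxN hyN hx2 hy2 hxy hxT hyT hxyT hN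
  have hTc : ∀ s ∈ (T : Subgroup G), ∀ t ∈ (T : Subgroup G), s * t = t * s :=
    fun s hs t ht => congrArg Subtype.val
      (hEA.1.is_comm.comm (⟨s, hs⟩ : (T : Subgroup G)) ⟨t, ht⟩)
  have hT3 : ∀ t ∈ (T : Subgroup G), t ^ 3 = 1 := hEA.2
  have hCT : ∀ g : G, (∀ t ∈ (T : Subgroup G), t * g = g * t) → g ∈ (T : Subgroup G) :=
    fun g hg => hC.le (mem_centralizer_iff.mpr hg)
  have hsyl : ∃ S : Sylow 3 G, (S : Subgroup G) = (T : Subgroup G) := ⟨T, rfl⟩
  by_cases hinv : ∀ t ∈ (T : Subgroup G), x * t * x⁻¹ = t⁻¹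
  · have hy : ∃ t ∈ (T : Subgroup G), y * t * y⁻¹ ≠ t⁻¹ := by
      by_contra hcon
      push Not at hcon
      apply hxyT
      apply hCT
      intro t ht
      have h1 : SemiconjBy x t t⁻¹ := mul_inv_eq_iff_eq_mul.mp (hinv t ht)
      have h2 : SemiconjBy y t t⁻¹ := mul_inv_eq_iff_eq_mul.mp (hcon t ht)
      have h3 : SemiconjBy x t⁻¹ t := by
        have h := h1.inv_right
        rwa [inv_inv] at h
      exact (h3.mul_left h2).eq.symm
    refine tnNormalCore hsyl hcard hTc hT3 hCT hloc hyN hxN hy2 hx2 hxy.symm hyT hxT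
      (by rw [← hxy]; exact hxyT) ?_ hy
    intro g hg
    obtain ⟨t, ht, hg'⟩ := hN g hg
    refine ⟨t, ht, ?_⟩
    rw [← hxy]
    rcases hg' with hg' | hg' | hg' | hg'
    · exact Or.inl hg'
    · exact Or.inr (Or.inr (Or.inl hg'))
    · exact Or.inr (Or.inl hg')
    · exact Or.inr (Or.inr (Or.inr hg'))
  · push Not at hinv
    exact tnNormalCore hsyl hcard hTc hT3 hCT hloc hxN hyN hx2 hy2 hxy hxT hyT hxyT hN hinv

example : Cfsg.Agent.H4.Tn.StNormal.{u} := normal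

end Cfsg.Agent.H3.Tn
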